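import Cfsg.Agent.Lib.Classical.SL2.Klein
import Cfsg.Agent.Lib.PermMod.PrimeNormal

/-!
# Solvable subgroups in a `KleinAction`

The set stabiliser `SS a b` of `{a, b}` is solvable.  The fixed point set of a non-trivial element
of a normal abelian subgroup is preserved.
-/

set_option autoImplicit false
set_option linter.unusedSectionVars false

namespace Cfsg.Agent.Lib.Solub.Basic

open MulAction
open Cfsg.Agent.Lib.Classical.SL2.Klein

variable {G Ω E : Type*} [Group G] [MulAction G Ω] [Field E] {p : ℕ}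

/-- The stabiliser of the set `{a, b}`. -/
def SS (a b : Ω) : Subgroup G where
  carrier := {g | (g • a = a ∧ g • b = b) ∨ (g • a = b ∧ g • b = a)}
  one_mem' := by simp
  mul_mem' := by
    rintro x y (⟨h1, h2⟩ | ⟨h1, h2⟩) (⟨h3, h4⟩ | ⟨h3, h4⟩) <;> simp [mul_smul, h1, h2, h3, h4]
  inv_mem' := by
    rintro x (⟨h1, h2⟩ | ⟨h1, h2⟩)
    · left
      simp only [inv_smul_eq_iff, h1, h2, and_self]
    · right
      simp only [inv_smul_eq_iff, h1, h2, and_self]

lemma mem_SS {a b : Ω} {g : G} : g ∈ (SS a b : Subgroup G) ↔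
    (g • a = a ∧ g • b = b) ∨ (g • a = b ∧ g • b = a) := Iff.rfl

lemma SS_self {a : Ω} {g : G} : g ∈ (SS a a : Subgroup G) ↔ g • a = a := by
  simp [mem_SS]

/-- The point stabiliser is solvable. -/
lemma isSolvable_stabilizer (K : KleinAction G Ω E p) (a : Ω) : Group.IsSolvable (stabilizer G a) := by
  let f : stabilizer G a →* E :=
    { toFun := fun g => K.chi a g
      map_one' := K.chi_one a
      map_mul' := fun g h => K.chi_mul a g h g.2 h.2 }
  let g : stabilizer G a →* Eˣ := f.toHomUnits
  haveI : Group.IsSolvable g.ker := by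
    apply Group.isSolvable_of_comm
    rintro ⟨x, hx⟩ ⟨y, hy⟩
    have hx' : K.chi a x = 1 := by
      have : g x = 1 := hx
      exact congrArg Units.val this
    have hy' : K.chi a y = 1 := by
      have : g y = 1 := hy
      exact congrArg Units.val this
    apply Subtype.ext
    apply Subtype.ext
    exact K.comm a x y x.2 y.2 hx' hy'
  haveI : Group.IsSolvable Eˣ := Group.isSolvable_of_comm mul_comm
  exact Group.isSolvable_of_ker_le_range g.ker.subtype g (by simp)

/-- The set stabiliser is solvable. -/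
theorem isSolvable_SS (K : KleinAction G Ω E p) (a b : Ω) : Group.IsSolvable (SS a b : Subgroup G) := by
  classical
  by_cases hab : a = b
  · subst hab
    haveI := isSolvable_stabilizer K a
    have hle : (SS a a : Subgroup G) ≤ stabilizer G a := fun g hg => SS_self.1 hg
    exact Group.isSolvable_of_isSolvable_injective (f := Subgroup.inclusion hle)
      (Subgroup.inclusion_injective hle)
  let ε : (SS a b : Subgroup G) →* ℤˣ :=
    MonoidHom.mk' (fun g => if (g : G) • a = a then 1 else -1) (by
      rintro ⟨x, hx⟩ ⟨y, hy⟩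
      have hba : b ≠ a := fun h => hab h.symm
      rcases hx with ⟨h1, h2⟩ | ⟨h1, h2⟩ <;> rcases hy with ⟨h3, h4⟩ | ⟨h3, h4⟩ <;>
        simp [mul_smul, h1, h2, h3, h4, hab, hba])
  haveI : Group.IsSolvable ℤˣ := Group.isSolvable_of_comm mul_comm
  haveI := isSolvable_stabilizer K a
  have hker : ∀ g : ε.ker, ((g : (SS a b : Subgroup G)) : G) ∈ stabilizer G a := by
    rintro ⟨g, hg⟩
    have h1 : ε g = 1 := hg
    have h2 : (if (g : G) • a = a then (1 : ℤˣ) else -1) = 1 := h1
    by_contra h3
    have h3' : ¬ (g : G) • a = a := h3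
    rw [if_neg h3'] at h2
    exact absurd h2 (by decide)
  let ι : ε.ker →* stabilizer G a :=
    MonoidHom.codRestrict ((SS a b : Subgroup G).subtype.comp ε.ker.subtype) _ hker
  have hι : Function.Injective ι := by
    intro x y hxy
    have : ((x : (SS a b : Subgroup G)) : G) = ((y : (SS a b : Subgroup G)) : G) :=
      congrArg (fun z : stabilizer G a => (z : G)) hxy
    exact Subtype.ext (Subtype.ext this)
  haveI : Group.IsSolvable ε.ker := Group.isSolvable_of_isSolvable_injective hι
  exact Group.isSolvable_of_ker_le_range ε.ker.subtype ε (by simp)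

/-- `x, y ∈ SS a b` generate a solvable subgroup. -/
theorem isSolvable_closure (K : KleinAction G Ω E p) {a b : Ω} {x y : G}
    (hx : x ∈ (SS a b : Subgroup G)) (hy : y ∈ (SS a b : Subgroup G)) :
    Group.IsSolvable (Subgroup.closure ({x, y} : Set G)) := by
  haveI := isSolvable_SS K a b
  have hle : Subgroup.closure ({x, y} : Set G) ≤ SS a b := by
    rw [Subgroup.closure_le]
    rintro z (rfl | rfl)
    · exact hx
    · exact hy
  exact Group.isSolvable_of_isSolvable_injective (f := Subgroup.inclusion hle)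
    (Subgroup.inclusion_injective hle)

/-- `w` has exactly the fixed points `b, c` (possibly equal). -/
structure Fixes (w : G) (b c : Ω) : Prop where
  left : w • b = b
  right : w • c = c
  only : ∀ d : Ω, w • d = d → d = b ∨ d = c

lemma exists_fixes (K : KleinAction G Ω E p) {w : G} (hw : w ≠ 1) : ∃ b c : Ω, Fixes w b c := by
  obtain ⟨b, hb⟩ := K.exists_fix w hw
  by_cases h : ∀ d, w • d = d → d = b
  · exact ⟨b, b, hb, hb, fun d hd => Or.inl (h d hd)⟩
  · push Not at h
    obtain ⟨c, hc, hcb⟩ := h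
    refine ⟨b, c, hb, hc, fun d hd => ?_⟩
    rcases K.fix_three w b c d hw hb hc hd with h | h | h
    · exact absurd h.symm hcb
    · exact Or.inl h.symm
    · exact Or.inr h.symm

lemma Fixes.mem_SS {w g : G} {b c : Ω} (h : Fixes w b c)
    (hg : ∀ d : Ω, w • d = d → w • (g • d) = g • d) : g ∈ (SS b c : Subgroup G) := by
  have h1 := h.only _ (hg b h.left)
  have h2 := h.only _ (hg c h.right)
  have hinj : ∀ {u v : Ω}, g • u = g • v → u = v := fun e => smul_left_cancel g e
  rw [Cfsg.Agent.Lib.Solub.Basic.mem_SS]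
  rcases h1 with h1 | h1 <;> rcases h2 with h2 | h2
  · have : c = b := hinj (h2.trans h1.symm)
    subst this
    exact Or.inl ⟨h1, h1⟩
  · exact Or.inl ⟨h1, h2⟩
  · exact Or.inr ⟨h1, h2⟩
  · have : b = c := hinj (h1.trans h2.symm)
    subst this
    exact Or.inl ⟨h1, h1⟩

/-- Two involutions with non-trivial product lie in a common `SS`. -/
lemma exists_SS_of_involutions (K : KleinAction G Ω E p) {x y : G} (hx : x * x = 1) (hy : y * y = 1)
    (hxy : x * y ≠ 1) : ∃ b c : Ω, x ∈ (SS b c : Subgroup G) ∧ y ∈ (SS b c : Subgroup G) := by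
  obtain ⟨b, c, h⟩ := exists_fixes K hxy
  have hxinv : x⁻¹ = x := inv_eq_of_mul_eq_one_left hx
  have hyinv : y⁻¹ = y := inv_eq_of_mul_eq_one_left hy
  refine ⟨b, c, h.mem_SS ?_, h.mem_SS ?_⟩
  · intro d hd
    -- `x y (x d) = x (y x) d`, and `y x = (x y)⁻¹`
    have hinv : (y * x) • d = d := by
      have : y * x = (x * y)⁻¹ := by
        rw [mul_inv_rev, hxinv, hyinv]
      rw [this, inv_smul_eq_iff, hd]
    calc (x * y) • x • d = x • (y * x) • d := by simp [mul_smul]
      _ = x • d := by rw [hinv]
  · intro d hd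
    have h2 : x • y • d = d := by rw [← mul_smul]; exact hd
    have h3 : y • d = x • d := by
      rw [← hxinv, eq_inv_smul_iff]
      exact h2
    calc (x * y) • y • d = x • (y * y) • d := by simp [mul_smul]
      _ = x • d := by rw [hy, one_smul]
      _ = y • d := h3.symm

/-- An element commuting with `z`, where `z` is not an involution, fixes the fixed points of `z`. -/
lemma fix_of_comm (K : KleinAction G Ω E p) {z w : G} {b c : Ω} (h : Fixes z b c)
    (hcomm : w * z = z * w) (hzz : z * z ≠ 1) : w • b = b ∧ w • c = c := by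
  have hm : w ∈ (SS b c : Subgroup G) := h.mem_SS (fun d hd => by
    rw [← mul_smul, ← hcomm, mul_smul, hd])
  rcases hm with hm | ⟨h1, h2⟩
  · exact hm
  · by_cases hbc : b = c
    · subst hbc
      exact ⟨h1, h2⟩
    · exfalso
      have h3 := (K.swap w b c hbc h1 h2).2 z h.left h.right
      rw [hcomm] at h3
      have h4 : z = z⁻¹ := by
        rw [← h3]; group
      apply hzz
      nth_rewrite 1 [h4]
      simp

/-- In characteristic two an involution has a unique fixed point. -/
lemma eq_of_sq_one (K : KleinAction G Ω E 2) [CharP E 2] {z : G} {b c : Ω} (hz : z ≠ 1)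
    (hzz : z * z = 1) (hb : z • b = b) (hc : z • c = c) : c = b := by
  have h1 : K.chi b z * K.chi b z = 1 := by
    rw [← K.chi_mul b z z hb hb, hzz, K.chi_one]
  have h2 : K.chi b z = 1 := by
    have h3 : (K.chi b z + 1) * (K.chi b z + 1) = 0 := by
      have h4 : (2 : E) = 0 := CharTwo.two_eq_zero
      linear_combination h1 + (K.chi b z + 1) * h4
    have h5 : K.chi b z + 1 = 0 := by
      rcases mul_self_eq_zero.1 h3 with h
      exact h
    have h6 : K.chi b z = -1 := by
      linear_combination h5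
    rw [h6, CharTwo.neg_eq]
  rcases (K.chi_eq_one_iff b z hb).1 h2 with h | h
  · exact absurd h hz
  · exact h c hc

/-- A subgroup normalising a commutative group fixing the two fixed points of one of its elements
lies in `SS`. -/
lemma le_SS_of_normal (A H : Subgroup G) {z : G} {b c : Ω} (h : Fixes z b c)
    (hA : ∀ w ∈ A, w • b = b ∧ w • c = c) (hn : ∀ g ∈ H, g⁻¹ * z * g ∈ A) : H ≤ SS b c := by
  intro g hg
  refine h.mem_SS (fun d hd => ?_)
  have h1 := hA _ (hn g hg)
  have h2 : (g⁻¹ * z * g) • d = d := by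
    rcases h.only d hd with rfl | rfl
    · exact h1.1
    · exact h1.2
  have h3 : z • (g • d) = g • (g⁻¹ * z * g) • d := by
    simp [mul_smul]
  rw [h3, h2]

/-- A solvable subgroup in characteristic two stabilises a set of size one or two. -/
theorem exists_SS_of_solvable (K : KleinAction G Ω E 2) [CharP E 2] (H : Subgroup G)
    (hsolv : Group.IsSolvable H) (hne : H ≠ ⊥) : ∃ b c : Ω, H ≤ SS b c := by
  haveI : Nontrivial H := (Subgroup.nontrivial_iff_ne_bot H).2 hne
  obtain ⟨M, hMn, hMb, hMc⟩ := Cfsg.Agent.Lib.PermMod.PrimeNormal.exists_abelian_normal (G := H)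
  obtain ⟨⟨z', hz'M⟩, hz'⟩ := (Subgroup.ne_bot_iff_exists_ne_one).1 hMb
  have hz'1 : z' ≠ 1 := fun h => hz' (Subtype.ext h)
  have hz0 : (z' : G) ≠ 1 := fun h => hz'1 (Subtype.ext h)
  obtain ⟨b, c, hfix⟩ := exists_fixes K hz0
  let A : Subgroup G := M.map H.subtype
  have hcomm : ∀ w ∈ A, w * (z' : G) = z' * w := by
    rintro _ ⟨w, hw, rfl⟩
    have := hMc.is_comm.comm ⟨w, hw⟩ ⟨z', hz'M⟩
    have h2 : w * z' = z' * w := congrArg Subtype.val this
    exact congrArg Subtype.val h2
  have hA : ∀ w ∈ A, w • b = b ∧ w • c = c := by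
    intro w hw
    by_cases hzz : (z' : G) * z' = 1
    · have hcb := eq_of_sq_one K hz0 hzz hfix.left hfix.right
      subst hcb
      have hm : w ∈ (SS c c : Subgroup G) := hfix.mem_SS (fun d hd => by
        rw [← mul_smul, ← hcomm w hw, mul_smul, hd])
      have := SS_self.1 hm
      exact ⟨this, this⟩
    · exact fix_of_comm K hfix (hcomm w hw) hzz
  refine ⟨b, c, le_SS_of_normal A H hfix hA ?_⟩
  intro g hg
  refine ⟨(⟨g, hg⟩ : H)⁻¹ * z' * ⟨g, hg⟩, ?_, rfl⟩
  have := hMn.conj_mem z' hz'M (⟨g, hg⟩ : H)⁻¹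
  simpa using this

end Cfsg.Agent.Lib.Solub.Basic
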