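import Cfsg.Agent.Lib.Solub.Basic
import Cfsg.Agent.Lib.Classical.SL2.Tori

/-!
# The solubilizers of elements of `PSL₂(2^n)`
-/

set_option autoImplicit false
set_option linter.unusedSectionVars false

namespace Cfsg.Agent.Lib.Solub.Even

open scoped MatrixGroups
open Matrix OnePoint MulAction
open Cfsg.Agent.Lib.Classical.SL2.Moebius Cfsg.Agent.Lib.Classical.SL2.Rational
open Cfsg.Agent.Lib.Classical.SL2.Klein Cfsg.Agent.Lib.Classical.SL2.Dickson
open Cfsg.Agent.Lib.Classical.SL2.Precise Cfsg.Agent.Lib.Classical.SL2.Tori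
open Cfsg.Agent.Lib.Solub.Basic

local notation "PGL2" => ProjGenLinGroup (Fin 2)
local notation "PSL2" => ProjectiveSpecialLinearGroup (Fin 2)

attribute [local instance] pslAct

variable {F E : Type*} [Field F] [Fintype F] [DecidableEq F] [Field E] [Algebra F E]
  [DecidableEq E]

lemma smul_eq (y : PSL2 F) (ω : OnePoint E) : y • ω = toE E (tP y) • ω := rfl

/-- `SS` in `PSL₂` as a pull back of `Dp`. -/
lemma SS_eq_comap (a b : OnePoint E) : (SS a b : Subgroup (PSL2 F)) = (Dp a b).comap tP := by
  ext y
  rfl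

/-- The pointwise stabiliser in `PSL₂`. -/
noncomputable def TT (a b : OnePoint E) : Subgroup (PSL2 F) := (Tp a b).comap tP

lemma mem_TT {a b : OnePoint E} {y : PSL2 F} : y ∈ (TT a b : Subgroup (PSL2 F)) ↔
    y • a = a ∧ y • b = b := Iff.rfl

lemma TT_le_SS (a b : OnePoint E) : (TT a b : Subgroup (PSL2 F)) ≤ SS a b :=
  fun _ hy => Or.inl hy

lemma smul_ιp (y : PSL2 F) (c : OnePoint F) : y • ιp E c = ιp E (tP y • c) :=
  toE_smul_ιp (tP y) c

lemma fix_ιp_iff (y : PSL2 F) (c : OnePoint F) : y • ιp E c = ιp E c ↔ tP y ∈ Bp c := by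
  rw [smul_ιp, mem_Bp]
  exact (ιp_injective E).eq_iff

section gcd

variable (hg : Nat.gcd 2 (Fintype.card F - 1) = 1)
include hg

lemma card_comap (A : Subgroup (PGL2 F)) : Nat.card (A.comap (tP (F := F))) = Nat.card A := by
  rw [card_comap_eq, Lp_eq_top_of_gcd hg, inf_top_eq]

lemma card_stab (c : OnePoint F) : Nat.card (stabilizer (PSL2 F) (ιp E c)) =
    Fintype.card F * (Fintype.card F - 1) := by
  rw [← card_Bp c, ← card_comap hg (Bp c)]
  congr 2
  ext y
  exact fix_ιp_iff y c

lemma card_TT_split {a b : OnePoint E} (h : SplitPair F a b) :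
    Nat.card (TT a b : Subgroup (PSL2 F)) = Fintype.card F - 1 := by
  rw [TT, card_comap hg, card_Tp_split h]

lemma card_SS_split [IsAlgClosed E] {a b : OnePoint E} (h : SplitPair F a b) :
    Nat.card (SS a b : Subgroup (PSL2 F)) = 2 * (Fintype.card F - 1) := by
  rw [SS_eq_comap, card_comap hg, card_Dp (Or.inl h), card_Tp_split h]

lemma card_TT_nonsplit [IsAlgClosed E] {a b : OnePoint E} (h : NonsplitPair F a b) :
    Nat.card (TT a b : Subgroup (PSL2 F)) = Fintype.card F + 1 := by
  rw [TT, card_comap hg, card_Tp_nonsplit h]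

lemma card_SS_nonsplit [IsAlgClosed E] {a b : OnePoint E} (h : NonsplitPair F a b) :
    Nat.card (SS a b : Subgroup (PSL2 F)) = 2 * (Fintype.card F + 1) := by
  rw [SS_eq_comap, card_comap hg, card_Dp (Or.inr h), card_Tp_nonsplit h]

end gcd

/-- Frobenius: a rational element fixing a point of a non-split pair fixes the other point. -/
lemma nonsplit_fix {a b : OnePoint E} (h : NonsplitPair F a b) {y : PSL2 F} (hy : y • a = a) :
    y • b = b := by
  obtain ⟨z, rfl, rfl, h1, h2⟩ := h
  obtain ⟨σ, hσ⟩ := exists_frobenius (F := F) (E := E)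
  have hσF : ∀ x : F, σ (algebraMap F E x) = algebraMap F E x := by
    intro x
    rw [hσ, ← map_pow, FiniteField.pow_card]
  obtain ⟨g, hg⟩ := ProjGenLinGroup.mk_surjective (tP y)
  have hy' : toE E (ProjGenLinGroup.mk g) • (z : OnePoint E) = z := by
    rw [hg]; exact hy
  have := map_frobenius_fix σ hσF g hy'
  rw [hg] at this
  simp only [OnePoint.map_some, hσ] at this
  exact this

lemma nonsplit_fix' {a b : OnePoint E} (h : NonsplitPair F a b) {y : PSL2 F} (hy : y • b = b) :
    y • a = a := by
  obtain ⟨z, rfl, rfl, h1, h2⟩ := h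
  obtain ⟨σ, hσ⟩ := exists_frobenius (F := F) (E := E)
  have hσF : ∀ x : F, σ (algebraMap F E x) = algebraMap F E x := by
    intro x
    rw [hσ, ← map_pow, FiniteField.pow_card]
  obtain ⟨g, hg⟩ := ProjGenLinGroup.mk_surjective (tP y)
  have hy' : toE E (ProjGenLinGroup.mk g) • ((z ^ Fintype.card F : E) : OnePoint E) =
      ((z ^ Fintype.card F : E) : OnePoint E) := by
    rw [hg]; exact hy
  have := map_frobenius_fix σ hσF g hy'
  rw [hg] at this
  simp only [OnePoint.map_some, hσ, h2] at this
  exact this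

section main

variable [IsAlgClosed E] [CharP E 2]

/-- The Klein action. -/
noncomputable abbrev KK (F E : Type*) [Field F] [Fintype F] [DecidableEq F] [Field E] [Algebra F E]
    [DecidableEq E] [IsAlgClosed E] [CharP E 2] : KleinAction (PSL2 F) (OnePoint E) E 2 :=
  KG E 2

/-- The solubilizer criterion. -/
lemma sol_iff {x : PSL2 F} (hx : x ≠ 1) (y : PSL2 F) :
    Group.IsSolvable (Subgroup.closure ({x, y} : Set (PSL2 F))) ↔
      ∃ b c : OnePoint E, x ∈ (SS b c : Subgroup (PSL2 F)) ∧ y ∈ (SS b c : Subgroup (PSL2 F)) := by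
  constructor
  · intro h
    have hne : Subgroup.closure ({x, y} : Set (PSL2 F)) ≠ ⊥ := by
      intro hb
      have : x ∈ Subgroup.closure ({x, y} : Set (PSL2 F)) := Subgroup.subset_closure (by simp)
      rw [hb, Subgroup.mem_bot] at this
      exact hx this
    obtain ⟨b, c, hle⟩ := exists_SS_of_solvable (KK F E) _ h hne
    exact ⟨b, c, hle (Subgroup.subset_closure (by simp)), hle (Subgroup.subset_closure (by simp))⟩
  · rintro ⟨b, c, h1, h2⟩
    exact isSolvable_closure (KK F E) h1 h2

/-- Odd order elements have two fixed points. -/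
lemma fixes_of_odd {x : PSL2 F} (hx : x ≠ 1) (hodd : Odd (orderOf x)) :
    ∃ b c : OnePoint E, b ≠ c ∧ Fixes x b c ∧ (SplitPair F b c ∨ NonsplitPair F b c) := by
  obtain ⟨b, c, h⟩ := exists_fixes (KK F E) hx
  have hbc : b ≠ c := by
    rintro rfl
    have h1 : (KK F E).chi b x = 1 := by
      rw [(KK F E).chi_eq_one_iff b x h.left]
      right
      intro d hd
      rcases h.only d hd with h' | h' <;> exact h'
    have h2 : x ^ 2 = 1 := (KK F E).pow_p x b h.left h1
    have h3 : orderOf x ∣ 2 := orderOf_dvd_of_pow_eq_one h2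
    rcases (Nat.dvd_prime Nat.prime_two).1 h3 with h4 | h4
    · exact hx (orderOf_eq_one_iff.1 h4)
    · rw [h4] at hodd
      exact absurd hodd (by decide)
  refine ⟨b, c, hbc, h, pair_of_element tP tP_injective (fun _ _ => rfl) (KK F E) hx hbc h.left h.right⟩

/-- The solubilizer of an element of odd order. -/
lemma sol_odd {x : PSL2 F} (hx : x ≠ 1) (hodd : Odd (orderOf x)) {b c : OnePoint E}
    (h : Fixes x b c) (y : PSL2 F) :
    Group.IsSolvable (Subgroup.closure ({x, y} : Set (PSL2 F))) ↔
      y • b = b ∨ y • c = c ∨ y ∈ (SS b c : Subgroup (PSL2 F)) := by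
  rw [sol_iff (E := E) hx]
  constructor
  · rintro ⟨b', c', h1, h2⟩
    have hfix : x • b' = b' ∧ x • c' = c' := by
      rcases h1 with h1 | ⟨h3, h4⟩
      · exact h1
      · by_cases hbc : b' = c'
        · subst hbc
          exact ⟨h3, h4⟩
        · exfalso
          have h5 := ((KK F E).swap x b' c' hbc h3 h4).1
          have h6 : orderOf x ∣ 2 := orderOf_dvd_of_pow_eq_one (by rw [pow_two]; exact h5)
          rcases (Nat.dvd_prime Nat.prime_two).1 h6 with h7 | h7
          · exact hx (orderOf_eq_one_iff.1 h7)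
          · rw [h7] at hodd
            exact absurd hodd (by decide)
    have e1 := h.only b' hfix.1
    have e2 := h.only c' hfix.2
    rcases e1 with rfl | rfl <;> rcases e2 with rfl | rfl
    · left
      exact SS_self.1 h2
    · right; right; exact h2
    · right; right
      rcases h2 with ⟨h3, h4⟩ | ⟨h3, h4⟩
      · exact Or.inl ⟨h4, h3⟩
      · exact Or.inr ⟨h4, h3⟩
    · right; left
      exact SS_self.1 h2
  · rintro (h1 | h1 | h1)
    · exact ⟨b, b, SS_self.2 h.left, SS_self.2 h1⟩
    · exact ⟨c, c, SS_self.2 h.right, SS_self.2 h1⟩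
    · exact ⟨b, c, Or.inl ⟨h.left, h.right⟩, h1⟩

instance : Finite (PSL2 F) := Finite.of_injective _ (tP_injective (F := F))

lemma card_sub (H : Subgroup (PSL2 F)) : (H : Set (PSL2 F)).ncard = Nat.card H := by
  rw [← Nat.card_coe_set_eq]
  rfl

/-- The number of elements swapping a split pair. -/
lemma card_swap (hg : Nat.gcd 2 (Fintype.card F - 1) = 1) {a b : OnePoint E}
    (h : SplitPair F a b) :
    (((SS a b : Subgroup (PSL2 F)) : Set (PSL2 F)) \ ((TT a b : Subgroup (PSL2 F)) : Set (PSL2 F))).ncard =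
      Fintype.card F - 1 := by
  rw [Set.ncard_sdiff (TT_le_SS a b) (Set.toFinite _), card_sub, card_sub, card_SS_split hg h,
    card_TT_split hg h]
  omega

/-- The count in the non-split case. -/
theorem count_nonsplit (hg : Nat.gcd 2 (Fintype.card F - 1) = 1) {x : PSL2 F} (hx : x ≠ 1)
    (hodd : Odd (orderOf x)) {b c : OnePoint E} (h : Fixes x b c) (hs : NonsplitPair F b c) :
    Nat.card {y : PSL2 F // Group.IsSolvable (Subgroup.closure ({x, y} : Set (PSL2 F)))} =
      2 * (Fintype.card F + 1) := by
  rw [← card_SS_nonsplit (E := E) hg hs]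
  refine Nat.card_congr (Equiv.subtypeEquivRight fun y => ?_)
  rw [sol_odd (E := E) hx hodd h]
  constructor
  · rintro (h1 | h1 | h1)
    · exact Or.inl ⟨h1, nonsplit_fix hs h1⟩
    · exact Or.inl ⟨nonsplit_fix' hs h1, h1⟩
    · exact h1
  · intro h1
    exact Or.inr (Or.inr h1)

/-- The count in the split case. -/
theorem count_split (hg : Nat.gcd 2 (Fintype.card F - 1) = 1) {x : PSL2 F} (hx : x ≠ 1)
    (hodd : Odd (orderOf x)) {b c : OnePoint E} (h : Fixes x b c) (hs : SplitPair F b c) :
    Nat.card {y : PSL2 F // Group.IsSolvable (Subgroup.closure ({x, y} : Set (PSL2 F)))} =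
      2 * Fintype.card F * (Fintype.card F - 1) := by
  set q := Fintype.card F with hq
  have hq1 : 1 < q := Fintype.one_lt_card
  have hab := pair_ne (Or.inl hs)
  obtain ⟨c₁, c₂, hc, rfl, rfl⟩ := id hs
  set A : Set (PSL2 F) := ((stabilizer (PSL2 F) (ιp E c₁) : Subgroup (PSL2 F)) : Set (PSL2 F)) with hA
  set B : Set (PSL2 F) := ((stabilizer (PSL2 F) (ιp E c₂) : Subgroup (PSL2 F)) : Set (PSL2 F)) with hB
  set D : Set (PSL2 F) := ((SS (ιp E c₁) (ιp E c₂) : Subgroup (PSL2 F)) : Set (PSL2 F)) with hD
  set T : Set (PSL2 F) := ((TT (ιp E c₁) (ιp E c₂) : Subgroup (PSL2 F)) : Set (PSL2 F)) with hT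
  have hS : {y : PSL2 F | Group.IsSolvable (Subgroup.closure ({x, y} : Set (PSL2 F)))} =
      (A ∪ B) ∪ (D \ T) := by
    ext y
    simp only [Set.mem_ofPred_eq]
    rw [sol_odd (E := E) hx hodd h]
    constructor
    · rintro (h1 | h1 | h1)
      · exact Or.inl (Or.inl h1)
      · exact Or.inl (Or.inr h1)
      · by_cases h2 : y ∈ T
        · exact Or.inl (Or.inl h2.1)
        · exact Or.inr ⟨h1, h2⟩
    · rintro ((h1 | h1) | ⟨h1, h2⟩)
      · exact Or.inl h1
      · exact Or.inr (Or.inl h1)
      · exact Or.inr (Or.inr h1)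
  have hdisj : Disjoint (A ∪ B) (D \ T) := by
    rw [Set.disjoint_left]
    rintro y (h1 | h1) ⟨h2, h3⟩
    · rcases h2 with h2 | ⟨h4, -⟩
      · exact h3 h2
      · have h1' : y • ιp E c₁ = ιp E c₁ := h1
        exact hab (h1'.symm.trans h4)
    · rcases h2 with h2 | ⟨-, h4⟩
      · exact h3 h2
      · have h1' : y • ιp E c₂ = ιp E c₂ := h1
        exact hab (h4.symm.trans h1')
  have hinter : A ∩ B = T := rfl
  have h1 := Set.ncard_union_add_ncard_inter A B (Set.toFinite _) (Set.toFinite _)
  rw [hinter] at h1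
  have h2 : A.ncard = q * (q - 1) := by
    rw [hA, card_sub, card_stab hg]
  have h3 : B.ncard = q * (q - 1) := by
    rw [hB, card_sub, card_stab hg]
  have h4 : T.ncard = q - 1 := by
    rw [hT, card_sub, card_TT_split hg hs]
  have h5 : (D \ T).ncard = q - 1 := card_swap hg hs
  have e : Nat.card {y : PSL2 F // Group.IsSolvable (Subgroup.closure ({x, y} : Set (PSL2 F)))} =
      ({y : PSL2 F | Group.IsSolvable (Subgroup.closure ({x, y} : Set (PSL2 F)))}).ncard := by
    rw [← Nat.card_coe_set_eq]
    rfl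
  rw [e, hS, Set.ncard_union_eq hdisj (Set.toFinite _) (Set.toFinite _), h5]
  rw [h2, h3, h4] at h1
  have h6 : 2 * q * (q - 1) = q * (q - 1) + q * (q - 1) := by ring
  rw [h6]
  omega

/-- The count for an involution. -/
theorem count_inv (E : Type*) [Field E] [Algebra F E] [DecidableEq E] [IsAlgClosed E] [CharP E 2]
    (hg : Nat.gcd 2 (Fintype.card F - 1) = 1) {x : PSL2 F} (hx : orderOf x = 2) :
    Nat.card {y : PSL2 F // Group.IsSolvable (Subgroup.closure ({x, y} : Set (PSL2 F)))} =
      3 * Fintype.card F * (Fintype.card F - 1) := by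
  classical
  set q := Fintype.card F with hq
  have hq1 : 1 < q := Fintype.one_lt_card
  have hx1 : x ≠ 1 := by
    rintro rfl
    simp at hx
  have hxx : x * x = 1 := by
    have := pow_orderOf_eq_one x
    rwa [hx, pow_two] at this
  have hxinv : x⁻¹ = x := inv_eq_of_mul_eq_one_left hxx
  obtain ⟨a, ha⟩ := (KK F E).exists_fix x hx1
  have huniq : ∀ d : OnePoint E, x • d = d → d = a := fun d hd =>
    eq_of_sq_one (KK F E) hx1 hxx ha hd
  obtain ⟨c₀, rfl⟩ := rational_of_element tP tP_injective (fun _ _ => rfl) ha huniq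
  set a := ιp E c₀ with ha'
  -- the three pieces
  set A : Set (PSL2 F) := ((stabilizer (PSL2 F) a : Subgroup (PSL2 F)) : Set (PSL2 F)) with hA
  set I : Set (PSL2 F) := {z | z * z = 1 ∧ z • a ≠ a} with hI
  set J : Set (PSL2 F) := {y | x * y ∈ I} with hJ
  have hmemA : ∀ {y : PSL2 F}, y ∈ A ↔ y • a = a := Iff.rfl
  have hS : {y : PSL2 F | Group.IsSolvable (Subgroup.closure ({x, y} : Set (PSL2 F)))} =
      A ∪ I ∪ J := by
    ext y
    simp only [Set.mem_ofPred_eq]
    rw [sol_iff (E := E) hx1]
    constructor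
    · rintro ⟨b, c, h1, h2⟩
      by_cases hya : y • a = a
      · exact Or.inl (Or.inl hya)
      rcases h1 with ⟨h3, h4⟩ | ⟨h3, h4⟩
      · exfalso
        have h5 := huniq b h3
        have h6 := huniq c h4
        subst h5 h6
        exact hya (SS_self.1 h2)
      · have hbc : b ≠ c := by
          rintro rfl
          have h5 := huniq b h3
          subst h5
          exact hya (SS_self.1 h2)
        rcases h2 with ⟨h5, h6⟩ | ⟨h5, h6⟩
        · -- `y` fixes both
          right
          have h7 := ((KK F E).swap x b c hbc h3 h4).2 y h5 h6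
          rw [hxinv] at h7
          refine ⟨?_, ?_⟩
          · calc x * y * (x * y) = (x * y * x) * y := by group
              _ = 1 := by rw [h7]; group
          · intro h8
            apply hya
            have h9 : x⁻¹ • (x * y) • a = x⁻¹ • a := by rw [h8]
            rw [← mul_smul, inv_mul_cancel_left, inv_smul_eq_iff.2 ha.symm] at h9
            exact h9
        · left; right
          exact ⟨((KK F E).swap y b c hbc h5 h6).1, hya⟩
    · rintro ((h1 | h1) | h1)
      · exact ⟨a, a, SS_self.2 ha, SS_self.2 h1⟩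
      · have hne : x * y ≠ 1 := by
          intro h2
          have h3 : y = x := by
            have := eq_inv_of_mul_eq_one_right h2
            rw [this, hxinv]
          rw [h3] at h1
          exact h1.2 ha
        obtain ⟨b, c, h2, h3⟩ := exists_SS_of_involutions (KK F E) hxx h1.1 hne
        exact ⟨b, c, h2, h3⟩
      · have hne : x * (x * y) ≠ 1 := by
          intro h2
          rw [← mul_assoc, hxx, one_mul] at h2
          apply h1.2
          rw [h2, mul_one]
          exact ha
        obtain ⟨b, c, h2, h3⟩ := exists_SS_of_involutions (KK F E) hxx h1.1 hne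
        refine ⟨b, c, h2, ?_⟩
        have h4 := mul_mem h2 h3
        rwa [← mul_assoc, hxx, one_mul] at h4
  have hd1 : Disjoint A I := by
    rw [Set.disjoint_left]
    rintro y h1 ⟨-, h3⟩
    exact h3 h1
  have hd2 : Disjoint (A ∪ I) J := by
    rw [Set.disjoint_left]
    rintro y (h1 | h1) ⟨h2, h3⟩
    · apply h3
      rw [mul_smul, hmemA.1 h1, ha]
    · -- `y` commutes with `x`
      have hcomm : x * y = y * x := by
        have h4 : x * y * (x * y) = 1 := h2
        have h5 : y * x * (x * y) = 1 := by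
          calc y * x * (x * y) = y * (x * x) * y := by group
            _ = y * y := by rw [hxx]; group
            _ = 1 := h1.1
        exact mul_right_cancel (h4.trans h5.symm)
      apply h1.2
      apply huniq
      rw [← mul_smul, hcomm, mul_smul, ha]
  -- the number of elements in `J`
  have hJI : J.ncard = I.ncard := by
    have : J = (fun y => x * y) '' I := by
      ext y
      constructor
      · intro hy
        refine ⟨x * y, hy, ?_⟩
        simp only
        rw [← mul_assoc, hxx, one_mul]
      · rintro ⟨z, hz, rfl⟩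
        change x * (x * z) ∈ I
        rwa [← mul_assoc, hxx, one_mul]
    rw [this, Set.ncard_image_of_injective _ (mul_right_injective x)]
  -- the number of elements in `I`
  have hIcard : I.ncard = q * (q - 1) := by
    haveI : Fintype (PSL2 F) := Fintype.ofFinite _
    haveI : Finite (OnePoint F) := inferInstanceAs (Finite (Option F))
    haveI : Fintype (OnePoint F) := Fintype.ofFinite _
    set sI : Finset (PSL2 F) := Finset.univ.filter (fun z => z ∈ I) with hsI
    have h1 : I.ncard = sI.card := by
      rw [← Set.ncard_coe_finset]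
      congr 1
      ext z
      simp [hsI]
    have hmaps : ∀ z ∈ sI, tP z • c₀ ∈ (Finset.univ.erase c₀ : Finset (OnePoint F)) := by
      intro z hz
      rw [Finset.mem_erase]
      refine ⟨?_, Finset.mem_univ _⟩
      intro h2
      have hz' : z ∈ I := by simpa [hsI] using hz
      apply hz'.2
      rw [ha', smul_ιp, h2]
    have hfiber : ∀ c ∈ (Finset.univ.erase c₀ : Finset (OnePoint F)),
        (sI.filter (fun z => tP z • c₀ = c)).card = q - 1 := by
      intro c hc
      have hc' : c₀ ≠ c := fun h => (Finset.mem_erase.1 hc).1 h.symm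
      have hsplit : SplitPair F a (ιp E c) := ⟨c₀, c, hc', rfl, rfl⟩
      rw [← card_swap hg hsplit, ← Set.ncard_coe_finset]
      congr 1
      ext z
      simp only [Finset.coe_filter, Set.mem_ofPred_eq, hsI, Finset.mem_filter, Finset.mem_univ,
        true_and, Set.mem_sdiff]
      have hab := pair_ne (Or.inl hsplit)
      constructor
      · rintro ⟨hz, h2⟩
        have h3 : z • a = ιp E c := by
          rw [ha', smul_ιp, h2]
        have h4 : z • ιp E c = a := by
          rw [← h3, ← mul_smul, hz.1, one_smul]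
        refine ⟨Or.inr ⟨h3, h4⟩, ?_⟩
        intro h5
        exact hz.2 h5.1
      · rintro ⟨h2, h3⟩
        rcases h2 with h2 | ⟨h2, h4⟩
        · exact absurd h2 h3
        · refine ⟨⟨((KK F E).swap z a _ hab h2 h4).1, ?_⟩, ?_⟩
          · rw [h2]
            exact hab.symm
          · apply ιp_injective E
            rw [← smul_ιp, ← ha', h2]
    rw [h1, Finset.card_eq_sum_card_fiberwise hmaps, Finset.sum_congr rfl hfiber,
      Finset.sum_const, smul_eq_mul, Finset.card_erase_of_mem (Finset.mem_univ _),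
      Finset.card_univ, ← Nat.card_eq_fintype_card, card_onePoint]
    simp [hq]
  have e : Nat.card {y : PSL2 F // Group.IsSolvable (Subgroup.closure ({x, y} : Set (PSL2 F)))} =
      ({y : PSL2 F | Group.IsSolvable (Subgroup.closure ({x, y} : Set (PSL2 F)))}).ncard := by
    rw [← Nat.card_coe_set_eq]
    rfl
  have hAcard : A.ncard = q * (q - 1) := by
    rw [hA, card_sub, card_stab hg]
  rw [e, hS, Set.ncard_union_eq hd2 (Set.toFinite _) (Set.toFinite _),
    Set.ncard_union_eq hd1 (Set.toFinite _) (Set.toFinite _), hJI, hIcard, hAcard]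
  ring

end main

end Cfsg.Agent.Lib.Solub.Even
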