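import Cfsg.Agent.Lib.Classical.SL2.V4Abs

/-!
# The normaliser of a four-group, in a group of order not divisible by eight
-/

set_option autoImplicit false
set_option linter.unusedSectionVars false

namespace Cfsg.Agent.Lib.Solub.V4Norm

open Equiv
open Cfsg.Agent.Lib.Classical.SL2.V4Abs

variable {G : Type*} [Group G] {V : Subgroup G}

/-- A self-centralising four-group. -/
structure Setting (V : Subgroup G) : Prop where
  card : Nat.card V = 4
  exp2 : ∀ v ∈ V, v * v = 1
  self : ∀ g : G, (∀ v ∈ V, g * v * g⁻¹ = v) → g ∈ V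
  not8 : ¬ 8 ∣ Nat.card G

/-- The normaliser. -/
abbrev NN (V : Subgroup G) : Subgroup G := Subgroup.normalizer (V : Set G)

lemma le_NN (V : Subgroup G) : V ≤ NN V := Subgroup.le_normalizer

lemma conj_mem {g v : G} (hg : g ∈ NN V) (hv : v ∈ V) : g * v * g⁻¹ ∈ V :=
  (Subgroup.mem_normalizer_iff.1 hg v).1 hv

variable [Finite G] (h : Setting V)

include h

lemma selfCent : SelfCent (V.subgroupOf (NN V)) :=
  selfCent_subgroupOf (le_NN V) le_rfl h.card h.exp2 h.self

lemma sub_normal : (V.subgroupOf (NN V)).Normal := (selfCent h).normal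

/-- The action on the non-trivial elements. -/
noncomputable abbrev ρ : NN V →* Perm {v : V.subgroupOf (NN V) // v ≠ 1} := rho (sub_normal h)

lemma rho_eq_one_iff (g : NN V) : ρ h g = 1 ↔ (g : G) ∈ V := by
  have h1 := mem_ker_rho_iff (selfCent h) g
  rw [MonoidHom.mem_ker, Subgroup.mem_subgroupOf] at h1
  exact h1

lemma card_range : Nat.card (ρ h).range * 4 = Nat.card (NN V) := by
  have h1 : (ρ h).ker = V.subgroupOf (NN V) := by
    ext g
    rw [MonoidHom.mem_ker, rho_eq_one_iff h, Subgroup.mem_subgroupOf]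
  have h2 := Subgroup.index_mul_card (ρ h).ker
  rw [Subgroup.index_ker, h1, (selfCent h).card] at h2
  exact h2

lemma card_range_dvd : Nat.card (ρ h).range ∣ 3 := by
  have h3 : Nat.card (ρ h).range ∣ Nat.card (Perm {v : V.subgroupOf (NN V) // v ≠ 1}) :=
    Subgroup.card_subgroup_dvd_card _
  have h4 : Nat.card (Perm {v : V.subgroupOf (NN V) // v ≠ 1}) = 6 := by
    rw [Nat.card_perm, card_X (selfCent h)]
    rfl
  rw [h4] at h3
  have h5 : Nat.card (ρ h).range ≤ 6 := Nat.le_of_dvd (by norm_num) h3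
  have h6 : ¬ 2 ∣ Nat.card (ρ h).range := by
    intro h7
    apply h.not8
    have h8 : Nat.card (NN V) ∣ Nat.card G := Subgroup.card_subgroup_dvd_card _
    refine dvd_trans ?_ h8
    rw [← card_range h]
    exact Nat.mul_dvd_mul h7 (dvd_refl 4)
  interval_cases hc : Nat.card (ρ h).range <;> omega

/-- Elements outside `V`: `ρ g` generates the range. -/
lemma card_range_eq {g : NN V} (hg : (g : G) ∉ V) : Nat.card (ρ h).range = 3 := by
  have h1 := card_range_dvd h
  rcases (Nat.dvd_prime Nat.prime_three).1 h1 with h2 | h2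
  · exfalso
    apply hg
    rw [← rho_eq_one_iff h]
    haveI : Subsingleton (ρ h).range := (Nat.card_eq_one_iff_unique.1 h2).1
    have h3 : (⟨ρ h g, MonoidHom.mem_range.2 ⟨g, rfl⟩⟩ : (ρ h).range) = 1 := Subsingleton.elim _ _
    exact congrArg Subtype.val h3
  · exact h2

lemma rho_pow_three {g : NN V} (hg : (g : G) ∉ V) : ρ h g ^ 3 = 1 := by
  have h1 := card_range_eq h hg
  have h2 := pow_card_eq_one' (x := (⟨ρ h g, MonoidHom.mem_range.2 ⟨g, rfl⟩⟩ : (ρ h).range))
  rw [h1] at h2
  exact congrArg Subtype.val h2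

/-- Elements outside `V` act without fixed points. -/
lemma no_fixed {g : G} (hgN : g ∈ NN V) (hg : g ∉ V) {v : G} (hv : v ∈ V) (hv1 : v ≠ 1) :
    g * v * g⁻¹ ≠ v := by
  intro hfix
  have hg' : ((⟨g, hgN⟩ : NN V) : G) ∉ V := hg
  apply hg
  rw [show g = ((⟨g, hgN⟩ : NN V) : G) from rfl, ← rho_eq_one_iff h]
  refine perm3_fix (card_X (selfCent h)) _ (rho_pow_three h hg')
    (⟨⟨⟨v, le_NN V hv⟩, by rwa [Subgroup.mem_subgroupOf]⟩, fun h3 => hv1 ?_⟩ :
      {v : V.subgroupOf (NN V) // v ≠ 1}) ?_
  · have := congrArg (fun z : V.subgroupOf (NN V) => ((z : NN V) : G)) h3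
    exact this
  · apply Subtype.ext
    apply Subtype.ext
    apply Subtype.ext
    exact hfix

/-- **Elements outside `V` have order three.** -/
lemma pow_three {g : G} (hgN : g ∈ NN V) (hg : g ∉ V) : g ^ 3 = 1 := by
  by_contra hne
  have hg' : ((⟨g, hgN⟩ : NN V) : G) ∉ V := hg
  have h1 : g ^ 3 ∈ V := by
    have h2 := rho_pow_three h hg'
    rw [← map_pow, rho_eq_one_iff h] at h2
    exact h2
  apply no_fixed h hgN hg h1 hne
  have h2 : g * g ^ 3 = g ^ 3 * g := (Commute.refl g).pow_right 3
  rw [h2]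
  simp

/-- **Elements of the normaliser in terms of one outside `V`.** -/
lemma exists_eq_mul_pow {g y : G} (hgN : g ∈ NN V) (hg : g ∉ V) (hy : y ∈ NN V) :
    ∃ v ∈ V, ∃ i : ℕ, i < 3 ∧ y = v * g ^ i := by
  have hg' : ((⟨g, hgN⟩ : NN V) : G) ∉ V := hg
  have h1 := card_range_eq h hg'
  haveI : Fact (Nat.Prime 3) := ⟨Nat.prime_three⟩
  have hne : (⟨ρ h ⟨g, hgN⟩, MonoidHom.mem_range.2 ⟨_, rfl⟩⟩ : (ρ h).range) ≠ 1 := by
    intro h2
    apply hg'
    rw [← rho_eq_one_iff h]
    exact congrArg Subtype.val h2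
  have h2 := mem_zpowers_of_prime_card h1 hne
    (g' := (⟨ρ h ⟨y, hy⟩, MonoidHom.mem_range.2 ⟨_, rfl⟩⟩ : (ρ h).range))
  obtain ⟨k, hk⟩ := Subgroup.mem_zpowers_iff.1 h2
  have h3 : ρ h ⟨g, hgN⟩ ^ k = ρ h ⟨y, hy⟩ := congrArg Subtype.val hk
  rw [← map_zpow] at h3
  have hg3 := pow_three h hgN hg
  set i := (k % 3).toNat with hi
  have hk3 : (k % 3) = (i : ℤ) := by
    rw [hi, Int.toNat_of_nonneg (Int.emod_nonneg k (by norm_num))]
  have hi3 : i < 3 := by
    have := Int.emod_lt_of_pos k (by norm_num : (0 : ℤ) < 3)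
    omega
  have hz : g ^ k = g ^ i := by
    have h5 : k = 3 * (k / 3) + (k % 3) := (Int.mul_ediv_add_emod k 3).symm
    rw [h5, zpow_add, zpow_mul]
    have h6 : g ^ (3 : ℤ) = 1 := by exact_mod_cast hg3
    rw [h6, one_zpow, one_mul, hk3, zpow_natCast]
  refine ⟨y * (g ^ i)⁻¹, ?_, i, hi3, by group⟩
  have h4 : ρ h (⟨y, hy⟩ * (⟨g, hgN⟩ ^ k)⁻¹) = 1 := by
    rw [map_mul, map_inv, h3, mul_inv_cancel]
  rw [rho_eq_one_iff h] at h4
  have h7 : ((⟨y, hy⟩ * (⟨g, hgN⟩ ^ k)⁻¹ : NN V) : G) = y * (g ^ i)⁻¹ := by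
    rw [← hz]
    rfl
  rwa [h7] at h4

/-- **The normaliser is solvable.** -/
lemma isSolvable_NN : Group.IsSolvable (NN V) := by
  haveI : Group.IsSolvable (ρ h).range := by
    have h1 := card_range_dvd h
    rcases (Nat.dvd_prime Nat.prime_three).1 h1 with h2 | h2
    · haveI : Subsingleton (ρ h).range := (Nat.card_eq_one_iff_unique.1 h2).1
      apply Group.isSolvable_of_comm
      intro a b
      exact Subsingleton.elim _ _
    · haveI : Fact (Nat.Prime 3) := ⟨Nat.prime_three⟩
      haveI := isCyclic_of_prime_card h2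
      apply Group.isSolvable_of_comm
      exact fun a b => IsCyclic.commGroup.mul_comm a b
  haveI : Group.IsSolvable (ρ h).ker := by
    apply Group.isSolvable_of_comm
    rintro ⟨a, ha⟩ ⟨b, hb⟩
    have ha' : (a : G) ∈ V := (rho_eq_one_iff h a).1 ha
    have hb' : (b : G) ∈ V := (rho_eq_one_iff h b).1 hb
    apply Subtype.ext
    apply Subtype.ext
    show (a : G) * b = b * a
    have h1 := h.exp2 _ (V.mul_mem ha' hb')
    have h2 := h.exp2 _ ha'
    have h3 := h.exp2 _ hb'
    calc (a : G) * b = a * b * (b * a * (b * a)) := by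
          rw [h.exp2 _ (V.mul_mem hb' ha'), mul_one]
      _ = a * (b * b) * a * (b * a) := by group
      _ = b * a := by rw [h3, mul_one, h2, one_mul]
  exact Group.isSolvable_of_ker_le_range (ρ h).ker.subtype (ρ h).rangeRestrict (by
    intro x hx
    refine ⟨⟨x, ?_⟩, rfl⟩
    rw [MonoidHom.mem_ker] at hx ⊢
    have := congrArg Subtype.val hx
    exact this)

omit h in
/-- The three non-trivial elements of a four-group. -/
lemma mul_pow_three_eq_one (hc : Nat.card V = 4) (hexp : ∀ v ∈ V, v * v = 1) {g v : G}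
    (hg : g ∈ NN V) (hg3 : g ^ 3 = 1) (hv : v ∈ V) (hv1 : v ≠ 1) (hfix : g * v * g⁻¹ ≠ v) :
    (g * v) ^ 3 = 1 := by
  classical
  set v₁ := g * v * g⁻¹ with hv₁
  set v₂ := g * v₁ * g⁻¹ with hv₂
  have hm1 : v₁ ∈ V := conj_mem hg hv
  have hm2 : v₂ ∈ V := conj_mem hg hm1
  have hg3' : g * g * g = 1 := by
    rw [← hg3, pow_succ, pow_two]
  have hginv : g⁻¹ = g * g := by
    rw [inv_eq_iff_mul_eq_one]
    rw [← hg3', mul_assoc]
  have hback : g * v₂ * g⁻¹ = v := by
    rw [hv₂, hv₁]
    calc g * (g * (g * v * g⁻¹) * g⁻¹) * g⁻¹ = (g * g * g) * v * (g⁻¹ * g⁻¹ * g⁻¹) := by group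
      _ = v := by
        have : g⁻¹ * g⁻¹ * g⁻¹ = (g * g * g)⁻¹ := by group
        rw [this, hg3']
        simp
  have h11 : v₁ ≠ 1 := by
    intro h
    apply hv1
    rw [hv₁, mul_inv_eq_one] at h
    exact mul_eq_left.1 h
  have h21 : v₂ ≠ 1 := by
    intro h
    apply h11
    rw [hv₂, mul_inv_eq_one] at h
    exact mul_eq_left.1 h
  have h1v : v₁ ≠ v := hfix
  have h2v : v₂ ≠ v := by
    intro h
    have h3 := hback
    rw [h] at h3
    exact hfix h3
  have h21' : v₂ ≠ v₁ := by
    intro h
    have h3 : g * v₁ * g⁻¹ = g * v * g⁻¹ := h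
    exact hfix (mul_left_cancel (mul_right_cancel h3))
  -- the elements of `V`
  have hall : ∀ w ∈ V, w = 1 ∨ w = v ∨ w = v₁ ∨ w = v₂ := by
    haveI : Finite V := inferInstance
    haveI : Fintype V := Fintype.ofFinite _
    have hcard : Fintype.card V = 4 := by rw [← Nat.card_eq_fintype_card, hc]
    set s : Finset V := {1, ⟨v, hv⟩, ⟨v₁, hm1⟩, ⟨v₂, hm2⟩} with hs
    have hscard : s.card = 4 := by
      rw [hs, Finset.card_insert_of_notMem, Finset.card_insert_of_notMem,
        Finset.card_insert_of_notMem, Finset.card_singleton]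
      · simp only [Finset.mem_singleton, Subtype.ext_iff]
        exact h21'.symm
      · simp only [Finset.mem_insert, Finset.mem_singleton, Subtype.ext_iff]
        rintro (h | h)
        · exact h1v h.symm
        · exact h2v h.symm
      · simp only [Finset.mem_insert, Finset.mem_singleton, Subtype.ext_iff, Subgroup.coe_one]
        rintro (h | h | h)
        · exact hv1 h.symm
        · exact h11 h.symm
        · exact h21 h.symm
    have huniv : s = Finset.univ := Finset.eq_univ_of_card _ (by rw [hscard, hcard])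
    intro w hw
    have h2 : (⟨w, hw⟩ : V) ∈ s := by rw [huniv]; exact Finset.mem_univ _
    simp only [hs, Finset.mem_insert, Finset.mem_singleton, Subtype.ext_iff] at h2
    simpa using h2
  -- the product
  have hprod : v₁ * v₂ = v := by
    rcases hall _ (V.mul_mem hm1 hm2) with h | h | h | h
    · exfalso
      apply h21'
      have h3 := hexp _ hm1
      exact (mul_left_cancel (h.trans h3.symm))
    · exact h
    · exfalso
      exact h21 (mul_eq_left.1 h)
    · exfalso
      exact h11 (mul_eq_right.1 h)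
  have key : (g * v) ^ 3 = v₁ * v₂ * v := by
    have h5 : g⁻¹ * g⁻¹ = g := by
      rw [hginv]
      calc g * g * (g * g) = (g * g * g) * g := by group
        _ = g := by rw [hg3', one_mul]
    have h6 : v₁ * v₂ * v = g * v * g * v * (g⁻¹ * g⁻¹) * v := by
      rw [hv₂, hv₁]
      group
    rw [h6, h5, pow_succ, pow_two]
    group
  rw [key, hprod, hexp v hv]

omit h in
/-- `x, y` in the normaliser generate a solvable group. -/
lemma isSolvable_closure_of_NN (h : Setting V) {x y : G} (hx : x ∈ NN V) (hy : y ∈ NN V) :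
    Group.IsSolvable (Subgroup.closure ({x, y} : Set G)) := by
  haveI := isSolvable_NN h
  have hle : Subgroup.closure ({x, y} : Set G) ≤ NN V := by
    rw [Subgroup.closure_le]
    rintro z (rfl | rfl)
    · exact hx
    · exact hy
  exact Group.isSolvable_of_isSolvable_injective (f := Subgroup.inclusion hle)
    (Subgroup.inclusion_injective hle)

omit h [Finite G] in
/-- A four-group from a multiplication table. -/
def fourOf (a b c : G) (ha : a * a = 1) (hb : b * b = 1) (hc : c * c = 1) (hbc : b * c = a)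
    (hcb : c * b = a) : Subgroup G where
  carrier := {1, a, b, c}
  one_mem' := by simp
  mul_mem' := by
    have hab : a * b = c := by rw [← hcb, mul_assoc, hb, mul_one]
    have hba : b * a = c := by rw [← hbc, ← mul_assoc, hb, one_mul]
    have hac : a * c = b := by rw [← hbc, mul_assoc, hc, mul_one]
    have hca : c * a = b := by rw [← hcb, ← mul_assoc, hc, one_mul]
    intro x y hx hy
    rcases hx with rfl | rfl | rfl | rfl <;> rcases hy with rfl | rfl | rfl | rfl <;>
      simp [*]
  inv_mem' := by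
    have key : ∀ z : G, z * z = 1 → z⁻¹ = z := fun z hz => inv_eq_of_mul_eq_one_left hz
    intro x hx
    rcases hx with rfl | rfl | rfl | rfl
    · simp
    · rw [key _ ha]; simp
    · rw [key _ hb]; simp
    · rw [key _ hc]; simp

omit h in
/-- **A four-group from an element of order three.** -/
theorem exists_four {g v : G} (hg3 : g ^ 3 = 1) (hvv : v * v = 1) (hv1 : v ≠ 1)
    (hfix : g * v * g⁻¹ ≠ v) (h3 : (g * v) ^ 3 = 1) :
    ∃ V : Subgroup G, Nat.card V = 4 ∧ (∀ w ∈ V, w * w = 1) ∧ g ∈ NN V ∧ v ∈ V := by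
  classical
  set a := v with ha'
  set b := g * v * g⁻¹ with hb'
  set c := g⁻¹ * v * g with hc'
  have hg3' : g * g * g = 1 := by
    rw [← hg3, pow_succ, pow_two]
  have hgg : g⁻¹ * g⁻¹ = g := by
    have h1 : g⁻¹ = g * g := by
      rw [inv_eq_iff_mul_eq_one, ← hg3', mul_assoc]
    rw [h1]
    calc g * g * (g * g) = (g * g * g) * g := by group
      _ = g := by rw [hg3', one_mul]
  have hgg' : g * g = g⁻¹ := by
    rw [eq_inv_iff_mul_eq_one]
    exact hg3'
  have ha : a * a = 1 := hvv
  have hb : b * b = 1 := by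
    calc b * b = g * (v * v) * g⁻¹ := by rw [hb']; group
      _ = 1 := by rw [hvv]; simp
  have hc : c * c = 1 := by
    calc c * c = g⁻¹ * (v * v) * g := by rw [hc']; group
      _ = 1 := by rw [hvv]; simp
  have hbc : b * c = a := by
    have h1 : b * c * a = 1 := by
      have h2 : b * c * a = g * v * (g⁻¹ * g⁻¹) * v * g * v := by
        rw [hb', hc', ha']
        group
      rw [h2, hgg, ← h3, pow_succ, pow_two]
      group
      rfl
    calc b * c = b * c * (a * a) := by rw [ha, mul_one]
      _ = (b * c * a) * a := by group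
      _ = a := by rw [h1, one_mul]
  have hcb : c * b = a := by
    calc c * b = (c * b) * (b * c * (b * c)) := by rw [hbc, ha, mul_one]
      _ = c * (b * b) * c * (b * c) := by group
      _ = a := by rw [hb, mul_one, hc, one_mul, hbc]
  have hb1 : b ≠ 1 := by
    intro h
    apply hv1
    rw [hb', mul_inv_eq_one] at h
    exact mul_eq_left.1 h
  have hc1 : c ≠ 1 := by
    intro h
    apply hv1
    rw [hc', mul_eq_one_iff_eq_inv] at h
    have h2 : g⁻¹ * v = g⁻¹ := h
    exact mul_eq_left.1 h2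
  have hba : b ≠ a := hfix
  have hca : c ≠ a := by
    intro h
    apply hfix
    have h2 : g⁻¹ * v * g = v := h
    have h4 : v * g = g * v := by
      have h5 := congrArg (fun z => g * z) h2
      simp only [mul_assoc, mul_inv_cancel_left] at h5
      exact h5
    rw [mul_inv_eq_iff_eq_mul]
    exact h4.symm
  have hcb' : c ≠ b := by
    intro h
    apply hv1
    rw [← hbc, ← h, hc]
  -- conjugation by `g`
  have hgb : g * b * g⁻¹ = c := by
    calc g * b * g⁻¹ = (g * g) * v * (g⁻¹ * g⁻¹) := by rw [hb']; group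
      _ = c := by rw [hgg, hgg']
  have hgc : g * c * g⁻¹ = a := by
    rw [hc', ha']
    group
  refine ⟨fourOf a b c ha hb hc hbc hcb, ?_, ?_, ?_, ?_⟩
  · have h1 : ((fourOf a b c ha hb hc hbc hcb : Subgroup G) : Set G) =
        (({1, a, b, c} : Finset G) : Set G) := by
      ext z
      simp [fourOf]
    have h2 : Nat.card (fourOf a b c ha hb hc hbc hcb : Subgroup G) =
        ((fourOf a b c ha hb hc hbc hcb : Subgroup G) : Set G).ncard := by
      rw [← Nat.card_coe_set_eq]
      rfl
    rw [h2, h1, Set.ncard_coe_finset, Finset.card_insert_of_notMem, Finset.card_insert_of_notMem,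
      Finset.card_insert_of_notMem, Finset.card_singleton]
    · simpa using hcb'.symm
    · simp only [Finset.mem_insert, Finset.mem_singleton]
      rintro (h | h)
      · exact hba h.symm
      · exact hca h.symm
    · simp only [Finset.mem_insert, Finset.mem_singleton]
      rintro (h | h | h)
      · exact hv1 h.symm
      · exact hb1 h.symm
      · exact hc1 h.symm
  · rintro w (rfl | rfl | rfl | rfl)
    · simp
    · exact ha
    · exact hb
    · exact hc
  · have hforw : ∀ w ∈ fourOf a b c ha hb hc hbc hcb, g * w * g⁻¹ ∈ fourOf a b c ha hb hc hbc hcb := by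
      rintro w (rfl | rfl | rfl | rfl)
      · simp only [mul_one, mul_inv_cancel]
        exact Subgroup.one_mem _
      · exact Or.inr (Or.inr (Or.inl rfl))
      · rw [hgb]
        exact Or.inr (Or.inr (Or.inr rfl))
      · rw [hgc]
        exact Or.inr (Or.inl rfl)
    rw [Subgroup.mem_normalizer_iff]
    intro w
    refine ⟨hforw w, fun hw => ?_⟩
    -- three applications of `g`
    have h1 := hforw _ (hforw _ hw)
    have h2 : g * (g * (g * w * g⁻¹) * g⁻¹) * g⁻¹ = w := by
      calc g * (g * (g * w * g⁻¹) * g⁻¹) * g⁻¹ = (g * g * g) * w * (g⁻¹ * g⁻¹ * g⁻¹) := by group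
        _ = w := by
          have : g⁻¹ * g⁻¹ * g⁻¹ = (g * g * g)⁻¹ := by group
          rw [this, hg3']
          simp
    rwa [h2] at h1
  · exact Or.inr (Or.inl rfl)

end Cfsg.Agent.Lib.Solub.V4Norm
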