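import Cfsg.Agent.Lib.Solub.Even
import Cfsg.Agent.Lib.Solub.V4Norm

/-!
# `PSL₂(F)`, `|F| ≡ 3 mod 8`, characteristic three: basic facts on solvable two-generator subgroups
-/

set_option autoImplicit false
set_option linter.unusedSectionVars false

namespace Cfsg.Agent.Lib.Solub.Odd

open scoped MatrixGroups
open Matrix OnePoint MulAction
open Cfsg.Agent.Lib.Classical.SL2.Moebius Cfsg.Agent.Lib.Classical.SL2.Rational
open Cfsg.Agent.Lib.Classical.SL2.Klein Cfsg.Agent.Lib.Classical.SL2.Dickson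
open Cfsg.Agent.Lib.Classical.SL2.Precise Cfsg.Agent.Lib.Classical.SL2.Tori
open Cfsg.Agent.Lib.Solub.Basic Cfsg.Agent.Lib.Solub.Even Cfsg.Agent.Lib.Solub.V4Norm

local notation "PGL2" => ProjGenLinGroup (Fin 2)
local notation "PSL2" => ProjectiveSpecialLinearGroup (Fin 2)

attribute [local instance] pslAct

section Abstract

variable {G Ω E : Type*} [Group G] [MulAction G Ω] [Field E] (K : KleinAction G Ω E 3)

include K

lemma pow_three_of_fixes {z : G} {b : Ω} (h : Fixes z b b) : z ^ 3 = 1 := by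
  have h1 : K.chi b z = 1 := by
    rw [K.chi_eq_one_iff b z h.left]
    right
    intro d hd
    rcases h.only d hd with h' | h' <;> exact h'
  exact K.pow_p z b h.left h1

omit K in
lemma eq_one_of_sq_cube {z : G} (h2 : z * z = 1) (h3 : z ^ 3 = 1) : z = 1 := by
  have h4 : z ^ 3 = z * (z * z) := by rw [pow_succ, pow_two, mul_assoc]
  rwa [h4, h2, mul_one] at h3

lemma ne_of_inv {z : G} {b c : Ω} (hz : z ≠ 1) (hzz : z * z = 1) (h : Fixes z b c) : b ≠ c := by
  rintro rfl
  exact hz (eq_one_of_sq_cube hzz (pow_three_of_fixes K h))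

lemma chi_mul_inv (b : Ω) {g : G} (hg : g • b = b) : K.chi b g⁻¹ * K.chi b g = 1 := by
  have h1 : g⁻¹ • b = b := by rw [inv_smul_eq_iff, hg]
  rw [← K.chi_mul b _ _ h1 hg, inv_mul_cancel, K.chi_one]

/-- Elements fixing two points commute. -/
lemma comm_of_fix {g h : G} {b c : Ω} (hbc : b ≠ c) (h1 : g • b = b) (h2 : g • c = c)
    (h3 : h • b = b) (h4 : h • c = c) : g * h = h * g := by
  have hg' : g⁻¹ • b = b := by rw [inv_smul_eq_iff, h1]
  have hh' : h⁻¹ • b = b := by rw [inv_smul_eq_iff, h3]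
  have hgc : g⁻¹ • c = c := by rw [inv_smul_eq_iff, h2]
  have hhc : h⁻¹ • c = c := by rw [inv_smul_eq_iff, h4]
  set w := g * h * g⁻¹ * h⁻¹ with hw
  have hwb : w • b = b := by simp only [hw, mul_smul, hh', hg', h3, h1]
  have hwc : w • c = c := by simp only [hw, mul_smul, hhc, hgc, h4, h2]
  have hchi : K.chi b w = 1 := by
    have e1 : (g * h) • b = b := by rw [mul_smul, h3, h1]
    have e2 : (g * h * g⁻¹) • b = b := by rw [mul_smul, hg', e1]
    rw [hw, K.chi_mul b _ _ e2 hh', K.chi_mul b _ _ e1 hg', K.chi_mul b _ _ h1 h3]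
    have e3 := chi_mul_inv K b h1
    have e4 := chi_mul_inv K b h3
    linear_combination (K.chi b h * K.chi b h⁻¹) * e3 + e4
  rcases (K.chi_eq_one_iff b w hwb).1 hchi with h5 | h5
  · have h6 : g * h * g⁻¹ = h := mul_inv_eq_one.1 h5
    exact mul_inv_eq_iff_eq_mul.1 h6
  · exact absurd (h5 c hwc).symm hbc

lemma chi_of_inv {z : G} {b c : Ω} (hbc : b ≠ c) (hz : z ≠ 1) (hzz : z * z = 1) (h1 : z • b = b)
    (h2 : z • c = c) : K.chi b z = -1 := by
  have h3 : K.chi b z * K.chi b z = 1 := by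
    rw [← K.chi_mul b z z h1 h1, hzz, K.chi_one]
  have h4 : K.chi b z ≠ 1 := by
    intro h5
    rcases (K.chi_eq_one_iff b z h1).1 h5 with h6 | h6
    · exact hz h6
    · exact hbc (h6 c h2).symm
  have h5 : (K.chi b z - 1) * (K.chi b z + 1) = 0 := by linear_combination h3
  rcases mul_eq_zero.1 h5 with h6 | h6
  · exact absurd (sub_eq_zero.1 h6) h4
  · linear_combination h6

/-- At most one involution fixes two points. -/
lemma inv_fix_eq {y z : G} {b c : Ω} (hbc : b ≠ c) (hy : y ≠ 1) (hyy : y * y = 1) (h1 : y • b = b)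
    (h2 : y • c = c) (hz : z ≠ 1) (hzz : z * z = 1) (h3 : z • b = b) (h4 : z • c = c) : y = z := by
  have e1 := chi_of_inv K hbc hy hyy h1 h2
  have e2 := chi_of_inv K hbc hz hzz h3 h4
  have e3 : K.chi b (y * z) = 1 := by
    rw [K.chi_mul b _ _ h1 h3, e1, e2]
    ring
  have hb : (y * z) • b = b := by rw [mul_smul, h3, h1]
  have hc : (y * z) • c = c := by rw [mul_smul, h4, h2]
  rcases (K.chi_eq_one_iff b _ hb).1 e3 with h5 | h5
  · have h6 : z⁻¹ = z := inv_eq_of_mul_eq_one_left hzz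
    rw [← h6]
    exact eq_inv_of_mul_eq_one_left h5
  · exact absurd (h5 c hc).symm hbc

/-- An element of a commutative group of exponent two. -/
lemma exp2_comm {A : Subgroup G} (hA : ∀ a ∈ A, a * a = 1) {u v : G} (hu : u ∈ A) (hv : v ∈ A) :
    u * v = v * u := by
  have h1 := hA _ (A.mul_mem hu hv)
  have h2 := hA _ hu
  have h3 := hA _ hv
  calc u * v = u * v * (v * u * (v * u)) := by rw [hA _ (A.mul_mem hv hu), mul_one]
    _ = u * (v * v) * u * (v * u) := by group
    _ = v * u := by rw [h3, mul_one, h2, one_mul]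

/-- A four-group in a `KleinAction` is self-centralising. -/
theorem four_self {V : Subgroup G} (hc : Nat.card V = 4) (hexp : ∀ v ∈ V, v * v = 1) (g : G)
    (hg : ∀ v ∈ V, g * v * g⁻¹ = v) : g ∈ V := by
  classical
  haveI : Finite V := Nat.finite_of_card_ne_zero (by rw [hc]; norm_num)
  -- two involutions
  have hex : ∀ s : Finset G, s.card < 4 → ∃ v ∈ V, v ∉ s := by
    intro s hs
    by_contra hcon
    push Not at hcon
    have h1 : (V : Set G) ⊆ s := fun v hv => hcon v hv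
    have h2 := Set.ncard_le_ncard h1 (Finset.finite_toSet s)
    rw [Set.ncard_coe_finset, ← Nat.card_coe_set_eq] at h2
    have h3 : Nat.card (V : Set G) = 4 := hc
    omega
  obtain ⟨v₁, hv₁, hv₁s⟩ := hex {1} (by simp)
  obtain ⟨v₂, hv₂, hv₂s⟩ := hex {1, v₁} (by
    exact lt_of_le_of_lt (Finset.card_le_two) (by norm_num))
  have hv₁1 : v₁ ≠ 1 := by simpa using hv₁s
  have hv₂1 : v₂ ≠ 1 := by
    intro h
    apply hv₂s
    simp [h]
  have hv₂v₁ : v₂ ≠ v₁ := by
    intro h
    apply hv₂s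
    simp [h]
  obtain ⟨b, c, hf⟩ := exists_fixes K hv₁1
  have hbc := ne_of_inv K hv₁1 (hexp _ hv₁) hf
  have hcomm : ∀ h : G, (∀ v ∈ V, h * v * h⁻¹ = v) → h ∈ (SS b c : Subgroup G) := by
    intro h hh
    refine hf.mem_SS (fun d hd => ?_)
    have h1 : h * v₁ = v₁ * h := mul_inv_eq_iff_eq_mul.1 (hh _ hv₁)
    rw [← mul_smul, ← h1, mul_smul, hd]
  have hv₂c : ∀ v ∈ V, v₂ * v * v₂⁻¹ = v := by
    intro v hv
    rw [mul_inv_eq_iff_eq_mul]
    exact exp2_comm K hexp hv₂ hv
  have hv₂swap : v₂ • b = c ∧ v₂ • c = b := by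
    rcases hcomm v₂ hv₂c with h | h
    · exact absurd (inv_fix_eq K hbc hv₂1 (hexp _ hv₂) h.1 h.2 hv₁1 (hexp _ hv₁) hf.left hf.right) hv₂v₁
    · exact h
  have hT : ∀ h : G, (∀ v ∈ V, h * v * h⁻¹ = v) → h • b = b → h • c = c → h ∈ V := by
    intro h hh h1 h2
    by_cases hh1 : h = 1
    · rw [hh1]
      exact V.one_mem
    have h3 := (K.swap v₂ b c hbc hv₂swap.1 hv₂swap.2).2 h h1 h2
    have h4 : h * v₂ = v₂ * h := mul_inv_eq_iff_eq_mul.1 (hh _ hv₂)
    have h5 : v₂ * h * v₂⁻¹ = h := by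
      rw [← h4]
      simp
    rw [h5] at h3
    have h6 : h * h = 1 := by
      nth_rewrite 1 [h3]
      simp
    rw [inv_fix_eq K hbc hh1 h6 h1 h2 hv₁1 (hexp _ hv₁) hf.left hf.right]
    exact hv₁
  rcases hcomm g hg with h | ⟨h1, h2⟩
  · exact hT g hg h.1 h.2
  · have h3 : g * v₂ ∈ V := by
      apply hT
      · intro v hv
        have e1 := hg v hv
        have e2 := hv₂c v hv
        calc g * v₂ * v * (g * v₂)⁻¹ = g * (v₂ * v * v₂⁻¹) * g⁻¹ := by group
          _ = v := by rw [e2, e1]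
      · rw [mul_smul, hv₂swap.1, h2]
      · rw [mul_smul, hv₂swap.2, h1]
    have h4 : g = g * v₂ * v₂ := by
      rw [mul_assoc, hexp _ hv₂, mul_one]
    rw [h4]
    exact V.mul_mem h3 hv₂

end Abstract

variable {F E : Type*} [Field F] [Fintype F] [DecidableEq F] [Field E] [Algebra F E] [DecidableEq E]

section Nums

variable (hq : Fintype.card F % 8 = 3)

include hq

lemma gcd_eq_two : Nat.gcd 2 (Fintype.card F - 1) = 2 := by
  apply Nat.gcd_eq_left
  omega

lemma card_G : Nat.card (PSL2 F) * 2 =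
    Fintype.card F * ((Fintype.card F - 1) * (Fintype.card F + 1)) := by
  have h1 := card_psl (F := F)
  rwa [gcd_eq_two hq] at h1

lemma not_eight_dvd : ¬ 8 ∣ Nat.card (PSL2 F) := by
  rintro ⟨k, hk⟩
  have h1 := card_G hq
  set q := Fintype.card F with hq'
  obtain ⟨m, hm⟩ : ∃ m, q = 8 * m + 3 := ⟨q / 8, by omega⟩
  have e1 : q - 1 = 2 * (4 * m + 1) := by omega
  have e2 : q + 1 = 4 * (2 * m + 1) := by omega
  rw [e1, e2, hk] at h1
  have h2 : 2 * k = q * ((4 * m + 1) * (2 * m + 1)) := by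
    apply Nat.eq_of_mul_eq_mul_left (by norm_num : 0 < 8)
    linarith
  have h3 : Odd (q * ((4 * m + 1) * (2 * m + 1))) := by
    refine Odd.mul ?_ (Odd.mul ?_ ?_)
    · exact ⟨4 * m + 1, by omega⟩
    · exact ⟨2 * m, by omega⟩
    · exact ⟨m, by omega⟩
  rw [← h2] at h3
  exact (Nat.not_odd_iff_even.2 (even_two_mul k)) h3

lemma card_stab (c : OnePoint F) :
    Nat.card (stabilizer (PSL2 F) (ιp E c)) * 2 = Fintype.card F * (Fintype.card F - 1) := by
  have h1 := card_Bp_inf_Lp c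
  rw [gcd_eq_two hq] at h1
  have h2 : stabilizer (PSL2 F) (ιp E c) = (Bp c).comap tP := by
    ext y
    exact fix_ιp_iff y c
  rw [← h1, ← card_comap_eq, h2]

lemma card_TT [IsAlgClosed E] {a b : OnePoint E} (h : SplitPair F a b ∨ NonsplitPair F a b) :
    Nat.card (TT a b : Subgroup (PSL2 F)) * 2 = Nat.card (Tp (F := F) a b) := by
  have h1 := card_Tp_inf_Lp h
  rw [gcd_eq_two hq] at h1
  rw [← h1, TT, card_comap_eq]

lemma card_SS' [IsAlgClosed E] {a b : OnePoint E} (h : SplitPair F a b ∨ NonsplitPair F a b) :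
    Nat.card (SS a b : Subgroup (PSL2 F)) = 2 * (Nat.card (Tp (F := F) a b) / 2) := by
  have h1 := card_Dp_inf_Lp h
  rw [gcd_eq_two hq] at h1
  rw [← h1, SS_eq_comap, card_comap_eq]

lemma card_TT_split [IsAlgClosed E] {a b : OnePoint E} (h : SplitPair F a b) :
    Nat.card (TT a b : Subgroup (PSL2 F)) * 2 = Fintype.card F - 1 := by
  rw [card_TT hq (Or.inl h), card_Tp_split h]

lemma card_TT_nonsplit [IsAlgClosed E] {a b : OnePoint E} (h : NonsplitPair F a b) :
    Nat.card (TT a b : Subgroup (PSL2 F)) * 2 = Fintype.card F + 1 := by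
  rw [card_TT hq (Or.inr h), card_Tp_nonsplit h]

lemma card_SS_split [IsAlgClosed E] {a b : OnePoint E} (h : SplitPair F a b) :
    Nat.card (SS a b : Subgroup (PSL2 F)) = Fintype.card F - 1 := by
  rw [card_SS' hq (Or.inl h), card_Tp_split h]
  omega

lemma card_SS_nonsplit [IsAlgClosed E] {a b : OnePoint E} (h : NonsplitPair F a b) :
    Nat.card (SS a b : Subgroup (PSL2 F)) = Fintype.card F + 1 := by
  rw [card_SS' hq (Or.inr h), card_Tp_nonsplit h]
  omega

end Nums

lemma two_dvd_card_of_inv {G : Type*} [Group G] [Finite G] {H : Subgroup G} {z : G} (hz : z ∈ H)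
    (hz1 : z ≠ 1) (hzz : z * z = 1) : 2 ∣ Nat.card H := by
  haveI : Fact (Nat.Prime 2) := ⟨Nat.prime_two⟩
  have h1 : orderOf (⟨z, hz⟩ : H) = 2 := by
    apply orderOf_eq_prime
    · rw [pow_two]
      exact Subtype.ext hzz
    · intro h
      exact hz1 (congrArg Subtype.val h)
  rw [← h1]
  exact orderOf_dvd_natCard _

/-- Involutions do not fix rational points. -/
lemma inv_not_fix (hq : Fintype.card F % 8 = 3) {z : PSL2 F} (hz : z ≠ 1) (hzz : z * z = 1)
    (c : OnePoint F) : z • ιp E c ≠ ιp E c := by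
  intro h
  have h1 : 2 ∣ Nat.card (stabilizer (PSL2 F) (ιp E c)) := two_dvd_card_of_inv h hz hzz
  have h2 := card_stab (E := E) hq c
  set q := Fintype.card F with hq'
  obtain ⟨m, hm⟩ : ∃ m, q = 8 * m + 3 := ⟨q / 8, by omega⟩
  obtain ⟨k, hk⟩ := h1
  rw [hk] at h2
  have e1 : q - 1 = 2 * (4 * m + 1) := by omega
  rw [e1] at h2
  have h3 : 2 * k = q * (4 * m + 1) := by
    apply Nat.eq_of_mul_eq_mul_left (by norm_num : 0 < 2)
    linarith
  have h4 : Odd (q * (4 * m + 1)) := by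
    refine Odd.mul ?_ ?_
    · exact ⟨4 * m + 1, by omega⟩
    · exact ⟨2 * m, by omega⟩
  rw [← h3] at h4
  exact (Nat.not_odd_iff_even.2 (even_two_mul k)) h4

section main

variable [IsAlgClosed E] [CharP E 3]

/-- The Klein action. -/
noncomputable abbrev K3 (F E : Type*) [Field F] [Fintype F] [DecidableEq F] [Field E] [Algebra F E]
    [DecidableEq E] [IsAlgClosed E] [CharP E 3] : KleinAction (PSL2 F) (OnePoint E) E 3 :=
  KG E 3

/-- Four-groups in `PSL₂(F)`. -/
lemma setting (E : Type*) [Field E] [Algebra F E] [DecidableEq E] [IsAlgClosed E] [CharP E 3]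
    (hq : Fintype.card F % 8 = 3) {V : Subgroup (PSL2 F)} (hc : Nat.card V = 4)
    (hexp : ∀ v ∈ V, v * v = 1) : Setting V :=
  ⟨hc, hexp, four_self (K3 F E) hc hexp, not_eight_dvd hq⟩

/-- Involutions have a non-split pair of fixed points. -/
lemma inv_nonsplit (hq : Fintype.card F % 8 = 3) {z : PSL2 F} (hz : z ≠ 1) (hzz : z * z = 1)
    {b c : OnePoint E} (h : Fixes z b c) : NonsplitPair F b c := by
  have hbc := ne_of_inv (K3 F E) hz hzz h
  rcases pair_of_element tP tP_injective (fun _ _ => rfl) (K3 F E) hz hbc h.left h.right with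
    ⟨c₁, c₂, -, rfl, -⟩ | h1
  · exact absurd h.left (inv_not_fix hq hz hzz c₁)
  · exact h1

/-- The two cases of the solubility criterion. -/
theorem sol_cases (hq : Fintype.card F % 8 = 3) {x y : PSL2 F} (hx : x ≠ 1)
    (h : Group.IsSolvable (Subgroup.closure ({x, y} : Set (PSL2 F)))) :
    (∃ b c : OnePoint E, x ∈ (SS b c : Subgroup (PSL2 F)) ∧ y ∈ (SS b c : Subgroup (PSL2 F))) ∨
    (∃ V : Subgroup (PSL2 F), Nat.card V = 4 ∧ (∀ v ∈ V, v * v = 1) ∧ x ∈ NN V ∧ y ∈ NN V) := by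
  classical
  set H := Subgroup.closure ({x, y} : Set (PSL2 F)) with hH
  have hxH : x ∈ H := Subgroup.subset_closure (by simp)
  have hyH : y ∈ H := Subgroup.subset_closure (by simp)
  have hne : H ≠ ⊥ := by
    intro hb
    rw [hb, Subgroup.mem_bot] at hxH
    exact hx hxH
  haveI : Nontrivial H := (Subgroup.nontrivial_iff_ne_bot H).2 hne
  obtain ⟨M, hMn, hMb, hMc⟩ := Cfsg.Agent.Lib.PermMod.PrimeNormal.exists_abelian_normal (G := H)
  let A : Subgroup (PSL2 F) := M.map H.subtype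
  have hAcomm : ∀ u ∈ A, ∀ v ∈ A, u * v = v * u := by
    rintro _ ⟨u, hu, rfl⟩ _ ⟨v, hv, rfl⟩
    have := hMc.is_comm.comm ⟨u, hu⟩ ⟨v, hv⟩
    have h2 : u * v = v * u := congrArg Subtype.val this
    exact congrArg Subtype.val h2
  have hAn : ∀ g ∈ H, ∀ w ∈ A, g * w * g⁻¹ ∈ A := by
    rintro g hg _ ⟨w, hw, rfl⟩
    exact ⟨_, hMn.conj_mem w hw ⟨g, hg⟩, rfl⟩
  obtain ⟨⟨z', hz'M⟩, hz'⟩ := (Subgroup.ne_bot_iff_exists_ne_one).1 hMb
  have hz'1 : z' ≠ 1 := fun h => hz' (Subtype.ext h)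
  have hz0 : (z' : PSL2 F) ≠ 1 := fun h => hz'1 (Subtype.ext h)
  have hzA : (z' : PSL2 F) ∈ A := ⟨z', hz'M, rfl⟩
  by_cases hexp : ∀ w ∈ A, w * w = 1
  · -- elementary abelian
    have hp : IsPGroup 2 A := by
      intro w
      refine ⟨1, ?_⟩
      rw [pow_one, pow_two]
      exact Subtype.ext (hexp w w.2)
    obtain ⟨n, hn⟩ := IsPGroup.iff_card.1 hp
    have hdvd : 2 ^ n ∣ Nat.card (PSL2 F) := by
      rw [← hn]
      exact Subgroup.card_subgroup_dvd_card _
    have hn3 : n < 3 := by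
      by_contra hn3
      apply not_eight_dvd hq
      refine dvd_trans ?_ hdvd
      exact pow_dvd_pow 2 (by omega : 3 ≤ n)
    have hn0 : n ≠ 0 := by
      rintro rfl
      rw [pow_zero] at hn
      haveI : Subsingleton A := (Nat.card_eq_one_iff_unique.1 hn).1
      apply hz0
      have := Subsingleton.elim (⟨_, hzA⟩ : A) 1
      exact congrArg Subtype.val this
    obtain rfl | rfl : n = 1 ∨ n = 2 := by omega
    · -- order two: `H` centralises `z`
      left
      obtain ⟨b, c, hfix⟩ := exists_fixes (K3 F E) hz0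
      have hz2 : ∀ w ∈ A, w = 1 ∨ w = z' := by
        intro w hw
        have h1 : ((⟨w, hw⟩ : A) : PSL2 F) = 1 ∨ ((⟨w, hw⟩ : A) : PSL2 F) = z' := by
          have hne' : (⟨_, hzA⟩ : A) ≠ 1 := fun h => hz0 (congrArg Subtype.val h)
          have hcard : Nat.card A = 2 := by rw [hn]; norm_num
          obtain ⟨a, ha⟩ := (Nat.card_eq_two_iff' (1 : A)).1 hcard
          have e1 : (⟨_, hzA⟩ : A) = a := ha.2 _ hne'
          by_cases hw1 : (⟨w, hw⟩ : A) = 1
          · left
            exact congrArg Subtype.val hw1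
          · right
            have e2 : (⟨w, hw⟩ : A) = a := ha.2 _ hw1
            exact congrArg Subtype.val (e2.trans e1.symm)
        exact h1
      have hle : H ≤ SS b c := by
        intro g hg
        refine hfix.mem_SS (fun d hd => ?_)
        have h1 := hAn g hg _ hzA
        have h2 : g * z' * g⁻¹ = z' := by
          rcases hz2 _ h1 with h3 | h3
          · exfalso
            apply hz0
            have h4 : g * (z' : PSL2 F) = g := mul_inv_eq_one.1 h3
            exact mul_eq_left.1 h4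
          · exact h3
        have h3 : g * (z' : PSL2 F) = z' * g := mul_inv_eq_iff_eq_mul.1 h2
        rw [← mul_smul, ← h3, mul_smul, hd]
      exact ⟨b, c, hle hxH, hle hyH⟩
    · -- order four
      right
      have hHN : ∀ g ∈ H, g ∈ NN A := by
        intro g hg
        rw [Subgroup.mem_normalizer_iff]
        intro w
        refine ⟨hAn g hg w, fun hw => ?_⟩
        have := hAn g⁻¹ (H.inv_mem hg) _ hw
        simpa [mul_assoc] using this
      exact ⟨A, by rw [hn]; norm_num, hexp, hHN x hxH, hHN y hyH⟩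
  · -- a non-involution
    left
    push Not at hexp
    obtain ⟨w₀, hw₀, hw₀2⟩ := hexp
    have hw₀1 : w₀ ≠ 1 := by
      rintro rfl
      simp at hw₀2
    obtain ⟨b, c, hfix⟩ := exists_fixes (K3 F E) hw₀1
    have hA : ∀ w ∈ A, w • b = b ∧ w • c = c := fun w hw =>
      fix_of_comm (K3 F E) hfix (hAcomm w hw w₀ hw₀) hw₀2
    have hle : H ≤ SS b c := by
      refine le_SS_of_normal A H hfix hA ?_
      intro g hg
      have := hAn g⁻¹ (H.inv_mem hg) _ hw₀
      simpa using this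
    exact ⟨b, c, hle hxH, hle hyH⟩

end main

end Cfsg.Agent.Lib.Solub.Odd
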