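import Cfsg.Agent.Lib.Solub.OddThree

/-!
# The solubilisers of involutions of `PSL₂(F)`, `|F| ≡ 3 mod 8`, characteristic three
-/

set_option autoImplicit false
set_option linter.unusedSectionVars false

namespace Cfsg.Agent.Lib.Solub.Odd

open scoped MatrixGroups
open Matrix OnePoint MulAction
open Cfsg.Agent.Lib.Classical.SL2.Moebius Cfsg.Agent.Lib.Classical.SL2.Rational
open Cfsg.Agent.Lib.Classical.SL2.Klein Cfsg.Agent.Lib.Classical.SL2.Dickson
open Cfsg.Agent.Lib.Classical.SL2.Precise Cfsg.Agent.Lib.Classical.SL2.Tori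
open Cfsg.Agent.Lib.Solub.Basic Cfsg.Agent.Lib.Solub.Even Cfsg.Agent.Lib.Solub.V4Norm

local notation "PGL2" => ProjGenLinGroup (Fin 2)
local notation "PSL2" => ProjectiveSpecialLinearGroup (Fin 2)

attribute [local instance] pslAct

variable {F E : Type*} [Field F] [Fintype F] [DecidableEq F] [Field E] [Algebra F E] [DecidableEq E]

/-- The involutions. -/
def InvS (F : Type*) [Field F] [Fintype F] [DecidableEq F] : Set (PSL2 F) := {v | v * v = 1 ∧ v ≠ 1}

/-- The elements of order three. -/
def YS (F : Type*) [Field F] [Fintype F] [DecidableEq F] : Set (PSL2 F) := {y | y ≠ 1 ∧ y ^ 3 = 1}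

/-- The elements `y` of order three with `(y x)³ = 1`. -/
def AA (x : PSL2 F) : Set (PSL2 F) := {y | y ≠ 1 ∧ y ^ 3 = 1 ∧ (y * x) ^ 3 = 1}

section main

variable [IsAlgClosed E] [CharP E 3]

/-- **All involutions are conjugate.** -/
lemma inv_conj (E : Type*) [Field E] [Algebra F E] [DecidableEq E] [IsAlgClosed E] [CharP E 3]
    (hq : Fintype.card F % 8 = 3) {x v : PSL2 F} (hx : x ≠ 1) (hxx : x * x = 1) (hv : v ≠ 1)
    (hvv : v * v = 1) : ∃ g : PSL2 F, v = g * x * g⁻¹ := by
  obtain ⟨b, c, h1⟩ := exists_fixes (K3 F E) hx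
  obtain ⟨b', c', h2⟩ := exists_fixes (K3 F E) hv
  have hs1 := inv_nonsplit hq hx hxx h1
  have hs2 := inv_nonsplit hq hv hvv h2
  have hbc' := ne_of_inv (K3 F E) hv hvv h2
  have key : ∃ g : PSL2 F, g • b = b' ∧ g • c = c' := by
    obtain ⟨z, rfl, rfl, hz1, hz2⟩ := id hs1
    obtain ⟨z', rfl, rfl, hz1', hz2'⟩ := id hs2
    obtain ⟨C, hC1, hC2⟩ := exists_conj_nonsplit hz1 hz2 hz1' hz2'
    by_cases hCL : C ∈ Lp F
    · obtain ⟨g, rfl⟩ := hCL
      exact ⟨g, hC1, hC2⟩
    · obtain ⟨t, ht, htL⟩ := Set.not_subset.1 (Tp_not_le_Lp (gcd_eq_two hq) (Or.inr hs1))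
      have hindex : (Lp F).index = 2 := by rw [index_Lp, gcd_eq_two hq]
      have h3 : C * t ∈ Lp F :=
        (Subgroup.mul_mem_iff_of_index_two hindex).2 (iff_of_false hCL htL)
      obtain ⟨g, hg⟩ := h3
      have e : ∀ ω : OnePoint E, g • ω = toE E (tP g) • ω := fun _ => rfl
      refine ⟨g, ?_, ?_⟩
      · rw [e, hg, map_mul, mul_smul, ht.1, hC1]
      · rw [e, hg, map_mul, mul_smul, ht.2, hC2]
  obtain ⟨g, hg1, hg2⟩ := key
  refine ⟨g, inv_fix_eq (K3 F E) hbc' hv hvv h2.left h2.right (z := g * x * g⁻¹) ?_ ?_ ?_ ?_⟩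
  · intro h
    apply hx
    have h4 : g * x = g := mul_inv_eq_one.1 h
    exact mul_eq_left.1 h4
  · calc g * x * g⁻¹ * (g * x * g⁻¹) = g * (x * x) * g⁻¹ := by group
      _ = 1 := by rw [hxx]; simp
  · rw [← hg1, mul_smul, mul_smul, inv_smul_smul, h1.left]
  · rw [← hg2, mul_smul, mul_smul, inv_smul_smul, h1.right]

/-- The set stabiliser is the centraliser. -/
lemma mem_SS_iff_comm (hq : Fintype.card F % 8 = 3) {x y : PSL2 F} (hx : x ≠ 1) (hxx : x * x = 1)
    {b c : OnePoint E} (h : Fixes x b c) : y ∈ (SS b c : Subgroup (PSL2 F)) ↔ x * y = y * x := by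
  have hbc := ne_of_inv (K3 F E) hx hxx h
  constructor
  · rintro (⟨h1, h2⟩ | ⟨h1, h2⟩)
    · exact comm_of_fix (K3 F E) hbc h.left h.right h1 h2
    · have h3 := ((K3 F E).swap y b c hbc h1 h2).2 x h.left h.right
      have h4 : x⁻¹ = x := inv_eq_of_mul_eq_one_left hxx
      rw [h4] at h3
      have h5 : y * x = x * y := mul_inv_eq_iff_eq_mul.1 h3
      exact h5.symm
  · intro hc
    refine h.mem_SS (fun d hd => ?_)
    rw [← mul_smul, hc, mul_smul, hd]

/-- The number of involutions. -/
theorem card_InvS (E : Type*) [Field E] [Algebra F E] [DecidableEq E] [IsAlgClosed E] [CharP E 3]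
    (hq : Fintype.card F % 8 = 3) :
    (InvS F).ncard * 2 = Fintype.card F * (Fintype.card F - 1) := by
  classical
  haveI : Fintype (PSL2 F) := Fintype.ofFinite _
  haveI : Finite (OnePoint F) := inferInstanceAs (Finite (Option F))
  haveI : Fintype (OnePoint F) := Fintype.ofFinite _
  set q := Fintype.card F with hq'
  set c₀ : OnePoint F := ∞ with hc₀
  set a := ιp E c₀ with ha
  set sI : Finset (PSL2 F) := Finset.univ.filter (fun z => z ∈ InvS F) with hsI
  have h1 : (InvS F).ncard = sI.card := by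
    rw [← Set.ncard_coe_finset]
    congr 1
    ext z
    simp [hsI]
  have hmaps : ∀ z ∈ sI, tP z • c₀ ∈ (Finset.univ.erase c₀ : Finset (OnePoint F)) := by
    intro z hz
    rw [Finset.mem_erase]
    refine ⟨?_, Finset.mem_univ _⟩
    intro h2
    have hz' : z ∈ InvS F := by simpa [hsI] using hz
    apply inv_not_fix (E := E) hq hz'.2 hz'.1 c₀
    rw [smul_ιp, h2]
  have hfiber : ∀ c ∈ (Finset.univ.erase c₀ : Finset (OnePoint F)),
      (sI.filter (fun z => tP z • c₀ = c)).card = (q - 1) / 2 := by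
    intro c hc
    have hc' : c₀ ≠ c := fun h => (Finset.mem_erase.1 hc).1 h.symm
    have hsplit : SplitPair F a (ιp E c) := ⟨c₀, c, hc', rfl, rfl⟩
    have hab := pair_ne (Or.inl hsplit)
    have h2 : (sI.filter (fun z => tP z • c₀ = c) : Set (PSL2 F)) =
        ((SS a (ιp E c) : Subgroup (PSL2 F)) : Set (PSL2 F)) \
          ((TT a (ιp E c) : Subgroup (PSL2 F)) : Set (PSL2 F)) := by
      ext z
      simp only [Finset.coe_filter, Set.mem_ofPred_eq, hsI, Finset.mem_filter, Finset.mem_univ,
        true_and, Set.mem_sdiff]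
      constructor
      · rintro ⟨hz, h2⟩
        have h3 : z • a = ιp E c := by
          rw [ha, smul_ιp, h2]
        have h4 : z • ιp E c = a := by
          rw [← h3, ← mul_smul, hz.1, one_smul]
        refine ⟨Or.inr ⟨h3, h4⟩, ?_⟩
        intro h5
        exact inv_not_fix (E := E) hq hz.2 hz.1 c₀ h5.1
      · rintro ⟨h2, h3⟩
        rcases h2 with h2 | ⟨h2, h4⟩
        · exact absurd h2 h3
        · have hzz := ((K3 F E).swap z a _ hab h2 h4).1
          refine ⟨⟨hzz, ?_⟩, ?_⟩
          · rintro rfl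
            rw [one_smul] at h2
            exact hab h2
          · apply ιp_injective E
            rw [← smul_ιp, ← ha, h2]
    have h3 : (sI.filter (fun z => tP z • c₀ = c)).card =
        (((SS a (ιp E c) : Subgroup (PSL2 F)) : Set (PSL2 F)) \
          ((TT a (ιp E c) : Subgroup (PSL2 F)) : Set (PSL2 F))).ncard := by
      rw [← h2, Set.ncard_coe_finset]
    rw [h3, Set.ncard_sdiff (TT_le_SS _ _) (Set.toFinite _), card_sub, card_sub,
      card_SS_split hq hsplit]
    have h4 := card_TT_split hq hsplit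
    omega
  rw [h1, Finset.card_eq_sum_card_fiberwise hmaps, Finset.sum_congr rfl hfiber,
    Finset.sum_const, smul_eq_mul, Finset.card_erase_of_mem (Finset.mem_univ _),
    Finset.card_univ, ← Nat.card_eq_fintype_card, card_onePoint]
  simp only [Nat.add_sub_cancel]
  rw [mul_assoc]
  congr 1
  omega

/-- `3 = 0` in `F`. -/
lemma three_eq_zero (E : Type*) [Field E] [Algebra F E] [CharP E 3] : (3 : F) = 0 := by
  apply (algebraMap F E).injective
  rw [map_ofNat, map_zero]
  exact_mod_cast CharP.cast_eq_zero E 3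

lemma uP_cube (E : Type*) [Field E] [Algebra F E] [CharP E 3] (t : F) : uP t ^ 3 = 1 := by
  apply tP_injective
  rw [map_pow, map_one]
  have h3 := three_eq_zero (F := F) E
  have hcoe : ∀ k : F, tP (uP t) ^ 3 • (k : OnePoint F) = (k : OnePoint F) := by
    intro k
    rw [pow_succ, pow_two, mul_smul, mul_smul, uP_coe, uP_coe, uP_coe]
    congr 1
    linear_combination t * h3
  by_contra hne
  have h4 : tP (uP t) ^ 3 • (∞ : OnePoint F) = ∞ := by
    rw [pow_succ, pow_two, mul_smul, mul_smul, uP_infty, uP_infty, uP_infty]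
  rcases fix_three' _ ∞ ((0 : F) : OnePoint F) ((1 : F) : OnePoint F) hne h4 (hcoe 0) (hcoe 1) with
    h | h | h
  · simp at h
  · simp at h
  · rw [OnePoint.coe_eq_coe] at h
    exact zero_ne_one h

lemma uP_ne_one {t : F} (ht : t ≠ 0) : uP t ≠ 1 := by
  intro h
  have h1 := uP_coe t 0
  rw [h, map_one, one_smul, OnePoint.coe_eq_coe] at h1
  exact ht (by linear_combination -h1)

lemma uP_injective : Function.Injective (uP (F := F)) := by
  intro t t' h
  have h1 := uP_coe t 0
  rw [h, uP_coe, OnePoint.coe_eq_coe] at h1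
  linear_combination -h1

/-- Conjugate to the standard form. -/
lemma conj_eq_uP {x g : PSL2 F} {c₀ : OnePoint F} (hf : Fixes x (ιp E c₀) (ιp E c₀))
    (hg : tP g • (∞ : OnePoint F) = c₀) : ∃ t : F, t ≠ 0 ∧ g⁻¹ * x * g = uP t := by
  have hg' : g • (∞ : OnePoint E) = ιp E c₀ := by
    have : (∞ : OnePoint E) = ιp E (∞ : OnePoint F) := rfl
    rw [this, smul_ιp, hg]
  set x' := g⁻¹ * x * g with hx'
  have h1 : x' • (∞ : OnePoint E) = ∞ := by
    rw [hx', mul_smul, mul_smul, hg', hf.left, ← hg', inv_smul_smul]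
  have h2 : ∀ ω : OnePoint E, x' • ω = ω → ω = ∞ := by
    intro ω hω
    have h3 : x • (g • ω) = g • ω := by
      rw [hx', mul_smul, mul_smul, inv_smul_eq_iff] at hω
      exact hω
    have h4 : g • ω = g • (∞ : OnePoint E) := by
      rw [hg']
      rcases hf.only _ h3 with h5 | h5 <;> exact h5
    exact smul_left_cancel g h4
  exact eq_uP (E := E) h1 h2

/-- The elements of order three fixing a point. -/
lemma card_fix_YS (hq : Fintype.card F % 8 = 3) (h3 : 3 ∣ Fintype.card F) (c : OnePoint F) :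
    Nat.card {y : PSL2 F // y ∈ YS F ∧ y • ιp E c = ιp E c} = Fintype.card F - 1 := by
  classical
  obtain ⟨g, hg⟩ := exists_smul_infty' c
  have hg' : g • (∞ : OnePoint E) = ιp E c := by
    have : (∞ : OnePoint E) = ιp E (∞ : OnePoint F) := rfl
    rw [this, smul_ιp, hg]
  have hmem : ∀ t : {t : F // t ≠ 0}, g * uP t.1 * g⁻¹ ∈ YS F ∧
      (g * uP t.1 * g⁻¹) • ιp E c = ιp E c := by
    rintro ⟨t, ht⟩
    refine ⟨⟨?_, ?_⟩, ?_⟩
    · intro h
      apply uP_ne_one ht
      have h4 : g * uP t = g := mul_inv_eq_one.1 h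
      exact mul_eq_left.1 h4
    · rw [conj_pow, uP_cube E t]
      simp
    · rw [mul_smul, mul_smul, ← hg', inv_smul_smul]
      congr 1
      have : (∞ : OnePoint E) = ιp E (∞ : OnePoint F) := rfl
      rw [this, smul_ιp, uP_infty]
  let f : {t : F // t ≠ 0} → {y : PSL2 F // y ∈ YS F ∧ y • ιp E c = ιp E c} :=
    fun t => ⟨g * uP t.1 * g⁻¹, hmem t⟩
  have hf : Function.Bijective f := by
    constructor
    · rintro ⟨t, ht⟩ ⟨t', ht'⟩ h
      have h1 : g * uP t * g⁻¹ = g * uP t' * g⁻¹ := congrArg Subtype.val h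
      exact Subtype.ext (uP_injective (mul_left_cancel (mul_right_cancel h1)))
    · rintro ⟨y, ⟨hy1, hy3⟩, hyc⟩
      obtain ⟨c₀, hc₀⟩ := exists_rational_fix (E := E) hq h3 hy1 hy3
      have e1 : ιp E c = ιp E c₀ := by
        rcases hc₀.only _ hyc with h | h <;> exact h
      have e2 : c = c₀ := ιp_injective E e1
      subst e2
      obtain ⟨t, ht, hty⟩ := conj_eq_uP hc₀ hg
      refine ⟨⟨t, ht⟩, Subtype.ext ?_⟩
      show g * uP t * g⁻¹ = y
      rw [← hty]
      group
  rw [← Nat.card_congr (Equiv.ofBijective f hf), Nat.card_eq_fintype_card,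
    Fintype.card_subtype_compl, Fintype.card_subtype_eq]

/-- The number of elements of order three. -/
theorem card_YS (E : Type*) [Field E] [Algebra F E] [DecidableEq E] [IsAlgClosed E] [CharP E 3]
    (hq : Fintype.card F % 8 = 3) (h3 : 3 ∣ Fintype.card F) :
    (YS F).ncard = (Fintype.card F + 1) * (Fintype.card F - 1) := by
  classical
  haveI : Fintype (PSL2 F) := Fintype.ofFinite _
  haveI : Finite (OnePoint F) := inferInstanceAs (Finite (Option F))
  haveI : Fintype (OnePoint F) := Fintype.ofFinite _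
  set sY : Finset (PSL2 F) := Finset.univ.filter (fun z => z ∈ YS F) with hsY
  have h1 : (YS F).ncard = sY.card := by
    rw [← Set.ncard_coe_finset]
    congr 1
    ext z
    simp [hsY]
  have hb := Finset.sum_card_bipartiteAbove_eq_sum_card_bipartiteBelow (s := sY)
    (t := (Finset.univ : Finset (OnePoint F))) (fun (y : PSL2 F) (c : OnePoint F) => y • ιp E c = ιp E c)
  have hl : ∀ y ∈ sY, (Finset.bipartiteAbove (fun (y : PSL2 F) (c : OnePoint F) => y • ιp E c = ιp E c)
      (Finset.univ : Finset (OnePoint F)) y).card = 1 := by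
    intro y hy
    have hy' : y ∈ YS F := by simpa [hsY] using hy
    obtain ⟨c₀, hc₀⟩ := exists_rational_fix (E := E) hq h3 hy'.1 hy'.2
    rw [Finset.card_eq_one]
    refine ⟨c₀, ?_⟩
    ext c
    simp only [Finset.bipartiteAbove, Finset.mem_filter, Finset.mem_univ, true_and,
      Finset.mem_singleton]
    constructor
    · intro h
      apply ιp_injective E
      rcases hc₀.only _ h with h' | h' <;> exact h'
    · rintro rfl
      exact hc₀.left
  have hr : ∀ c ∈ (Finset.univ : Finset (OnePoint F)),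
      (Finset.bipartiteBelow (fun (y : PSL2 F) (c : OnePoint F) => y • ιp E c = ιp E c) sY c).card =
        Fintype.card F - 1 := by
    intro c _
    rw [← card_fix_YS (E := E) hq h3 c, ← Nat.card_eq_finsetCard]
    refine Nat.card_congr (Equiv.subtypeEquivRight fun y => ?_)
    simp [Finset.bipartiteBelow, hsY]
  rw [Finset.sum_congr rfl hl, Finset.sum_congr rfl hr, Finset.sum_const, Finset.sum_const,
    smul_eq_mul, smul_eq_mul, mul_one, Finset.card_univ, ← Nat.card_eq_fintype_card,
    card_onePoint] at hb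
  rw [h1, hb]

lemma AA_conj (x g : PSL2 F) : AA (g * x * g⁻¹) = (fun y => g * y * g⁻¹) '' AA x := by
  ext y
  constructor
  · rintro ⟨h1, h2, h3⟩
    refine ⟨g⁻¹ * y * g, ⟨?_, ?_, ?_⟩, by simp only; group⟩
    · intro h
      apply h1
      calc y = g * (g⁻¹ * y * g) * g⁻¹ := by group
        _ = 1 := by rw [h]; simp
    · have h4 := conj_pow (a := g⁻¹) (b := y) (i := 3)
      rw [inv_inv] at h4
      rw [h4, h2]
      simp
    · have h5 : g⁻¹ * y * g * x = g⁻¹ * (y * (g * x * g⁻¹)) * g := by group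
      have h4 := conj_pow (a := g⁻¹) (b := y * (g * x * g⁻¹)) (i := 3)
      rw [inv_inv] at h4
      rw [h5, h4, h3]
      simp
  · rintro ⟨z, ⟨h1, h2, h3⟩, rfl⟩
    refine ⟨?_, ?_, ?_⟩
    · intro h
      apply h1
      have h4 : g * z = g := mul_inv_eq_one.1 h
      exact mul_eq_left.1 h4
    · rw [conj_pow, h2]
      simp
    · have h5 : g * z * g⁻¹ * (g * x * g⁻¹) = g * (z * x) * g⁻¹ := by group
      rw [h5, conj_pow, h3]
      simp

lemma ncard_AA_conj (x g : PSL2 F) : (AA (g * x * g⁻¹)).ncard = (AA x).ncard := by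
  rw [AA_conj, Set.ncard_image_of_injective]
  intro a b h
  exact mul_left_cancel (mul_right_cancel h)

/-- **The number of elements `y` of order three with `(y x)³ = 1`.** -/
theorem card_AA (E : Type*) [Field E] [Algebra F E] [DecidableEq E] [IsAlgClosed E] [CharP E 3]
    (hq : Fintype.card F % 8 = 3) (h3 : 3 ∣ Fintype.card F) {x : PSL2 F} (hx : x ≠ 1)
    (hxx : x * x = 1) : (AA x).ncard = 2 * (Fintype.card F + 1) := by
  classical
  haveI : Fintype (PSL2 F) := Fintype.ofFinite _
  set q := Fintype.card F with hq'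
  have hq1 : 1 < q := Fintype.one_lt_card
  set sY : Finset (PSL2 F) := Finset.univ.filter (fun z => z ∈ YS F) with hsY
  set sI : Finset (PSL2 F) := Finset.univ.filter (fun z => z ∈ InvS F) with hsI
  have h1 : (YS F).ncard = sY.card := by
    rw [← Set.ncard_coe_finset]
    congr 1
    ext z
    simp [hsY]
  have h2 : (InvS F).ncard = sI.card := by
    rw [← Set.ncard_coe_finset]
    congr 1
    ext z
    simp [hsI]
  have hb := Finset.sum_card_bipartiteAbove_eq_sum_card_bipartiteBelow (s := sY)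
    (t := sI) (fun (y v : PSL2 F) => (y * v) ^ 3 = 1)
  have hl : ∀ y ∈ sY, (Finset.bipartiteAbove (fun (y v : PSL2 F) => (y * v) ^ 3 = 1) sI y).card = q := by
    intro y hy
    have hy' : y ∈ YS F := by simpa [hsY] using hy
    obtain ⟨c₀, hc₀⟩ := exists_rational_fix (E := E) hq h3 hy'.1 hy'.2
    have h5 : Nat.card (II y) = q := card_II hc₀ hq hy'.1
    rw [← h5, ← Nat.card_eq_finsetCard]
    refine Nat.card_congr (Equiv.subtypeEquivRight fun v => ?_)
    simp only [Finset.bipartiteAbove, hsI, Finset.mem_filter, Finset.mem_univ, true_and]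
    constructor
    · rintro ⟨⟨h4, h5⟩, h6⟩
      exact ⟨h4, h5, h6⟩
    · rintro ⟨h4, h5, h6⟩
      exact ⟨⟨h4, h5⟩, h6⟩
  have hr : ∀ v ∈ sI, (Finset.bipartiteBelow (fun (y v : PSL2 F) => (y * v) ^ 3 = 1) sY v).card =
      (AA x).ncard := by
    intro v hv
    have hv' : v ∈ InvS F := by simpa [hsI] using hv
    obtain ⟨g, rfl⟩ := inv_conj E hq hx hxx hv'.2 hv'.1
    rw [← ncard_AA_conj x g, ← Nat.card_eq_finsetCard, ← Nat.card_coe_set_eq]
    refine Nat.card_congr (Equiv.subtypeEquivRight fun y => ?_)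
    simp only [Finset.bipartiteBelow, hsY, Finset.mem_filter, Finset.mem_univ, true_and]
    constructor
    · rintro ⟨⟨h4, h5⟩, h6⟩
      exact ⟨h4, h5, h6⟩
    · rintro ⟨h4, h5, h6⟩
      exact ⟨⟨h4, h5⟩, h6⟩
  rw [Finset.sum_congr rfl hl, Finset.sum_congr rfl hr, Finset.sum_const, Finset.sum_const,
    smul_eq_mul, smul_eq_mul, ← h1, ← h2, card_YS E hq h3] at hb
  have h4 := card_InvS E hq
  have hpos : 0 < q * (q - 1) := Nat.mul_pos (by omega) (by omega)
  apply Nat.eq_of_mul_eq_mul_left hpos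
  have e1 : q * (q - 1) * (AA x).ncard = 2 * ((InvS F).ncard * (AA x).ncard) := by
    rw [← h4]
    ring
  have e2 : q * (q - 1) * (2 * (q + 1)) = 2 * ((q + 1) * (q - 1) * q) := by ring
  rw [e1, e2, hb]

/-- **The solubiliser of an involution.** -/
theorem sol_inv (hq : Fintype.card F % 8 = 3) {x : PSL2 F} (hx : x ≠ 1) (hxx : x * x = 1)
    {b c : OnePoint E} (h : Fixes x b c) (h3 : 3 ∣ Fintype.card F) (y : PSL2 F) :
    Group.IsSolvable (Subgroup.closure ({x, y} : Set (PSL2 F))) ↔
      y * y = 1 ∨ x * y * (x * y) = 1 ∨ y ∈ (SS b c : Subgroup (PSL2 F)) ∨ y ∈ AA x := by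
  have hbc := ne_of_inv (K3 F E) hx hxx h
  have hs := inv_nonsplit hq hx hxx h
  have hxinv : x⁻¹ = x := inv_eq_of_mul_eq_one_left hxx
  constructor
  · intro hsol
    rcases sol_cases (E := E) hq hx hsol with ⟨b', c', h1, h2⟩ | ⟨V, hV4, hVe, hxN, hyN⟩
    · by_cases hbc' : b' = c'
      · subst hbc'
        right; right; left
        have h4 := SS_self.1 h1
        have h5 := SS_self.1 h2
        rcases h.only _ h4 with rfl | rfl
        · exact Or.inl ⟨h5, nonsplit_fix hs h5⟩
        · exact Or.inl ⟨nonsplit_fix' hs h5, h5⟩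
      · rcases h1 with ⟨h4, h5⟩ | ⟨h4, h5⟩
        · right; right; left
          rcases h.only _ h4 with rfl | rfl <;> rcases h.only _ h5 with rfl | rfl
          · exact absurd rfl hbc'
          · exact h2
          · rcases h2 with ⟨h6, h7⟩ | ⟨h6, h7⟩
            · exact Or.inl ⟨h7, h6⟩
            · exact Or.inr ⟨h7, h6⟩
          · exact absurd rfl hbc'
        · rcases h2 with ⟨h6, h7⟩ | ⟨h6, h7⟩
          · right; left
            have h8 := ((K3 F E).swap x b' c' hbc' h4 h5).2 y h6 h7
            rw [hxinv] at h8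
            calc x * y * (x * y) = (x * y * x) * y := by group
              _ = 1 := by rw [h8]; group
          · left
            exact ((K3 F E).swap y b' c' hbc' h6 h7).1
    · have hset := setting E hq hV4 hVe
      have hxV : x ∈ V := by
        by_contra hxV
        exact hx (eq_one_of_sq_cube hxx (pow_three hset hxN hxV))
      by_cases hyV : y ∈ V
      · left
        exact hVe y hyV
      · right; right; right
        have hy3 := pow_three hset hyN hyV
        refine ⟨?_, hy3, ?_⟩
        · rintro rfl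
          exact hyV V.one_mem
        · exact mul_pow_three_eq_one hV4 hVe hyN hy3 hxV hx (no_fixed hset hyN hyV hxV hx)
  · have hxSS : x ∈ (SS b c : Subgroup (PSL2 F)) := Or.inl ⟨h.left, h.right⟩
    rintro (h1 | h1 | h1 | ⟨h1, h2, h4⟩)
    · by_cases hxy : x * y = 1
      · have h4 : y = x := by
          have := eq_inv_of_mul_eq_one_right hxy
          rw [this, hxinv]
        rw [h4]
        exact isSolvable_closure (K3 F E) hxSS hxSS
      · obtain ⟨b', c', h2, h4⟩ := exists_SS_of_involutions (K3 F E) hxx h1 hxy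
        exact isSolvable_closure (K3 F E) h2 h4
    · by_cases hxy : x * (x * y) = 1
      · rw [← mul_assoc, hxx, one_mul] at hxy
        rw [hxy]
        exact isSolvable_closure (K3 F E) hxSS (Subgroup.one_mem _)
      · obtain ⟨b', c', h2, h4⟩ := exists_SS_of_involutions (K3 F E) hxx h1 hxy
        refine isSolvable_closure (K3 F E) h2 (b := c') ?_
        have h5 := mul_mem h2 h4
        rwa [← mul_assoc, hxx, one_mul] at h5
    · exact isSolvable_closure (K3 F E) hxSS h1
    · obtain ⟨c₀, hc₀⟩ := exists_rational_fix (E := E) hq h3 h1 h2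
      have hII : x ∈ II y := ⟨hxx, hx, h4⟩
      obtain ⟨V, hV4, hVe, hyN, hxV⟩ := exists_four_II hc₀ hq h2 hII
      have hset := setting E hq hV4 hVe
      exact isSolvable_closure_of_NN hset (le_NN V hxV) hyN

/-- **The count for an involution.** -/
theorem count_inv' (E : Type*) [Field E] [Algebra F E] [DecidableEq E] [IsAlgClosed E] [CharP E 3]
    (hq : Fintype.card F % 8 = 3) (h3 : 3 ∣ Fintype.card F) {x : PSL2 F} (hx : x ≠ 1)
    (hxx : x * x = 1) :
    Nat.card {y : PSL2 F // Group.IsSolvable (Subgroup.closure ({x, y} : Set (PSL2 F)))} =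
      Fintype.card F * (Fintype.card F + 1) := by
  classical
  set q := Fintype.card F with hq'
  have hq1 : 1 < q := Fintype.one_lt_card
  obtain ⟨b, c, h⟩ := exists_fixes (K3 F E) hx
  have hbc := ne_of_inv (K3 F E) hx hxx h
  have hs := inv_nonsplit hq hx hxx h
  have hxinv : x⁻¹ = x := inv_eq_of_mul_eq_one_left hxx
  set I : Set (PSL2 F) := {y | y * y = 1} with hI
  set J : Set (PSL2 F) := {y | x * y * (x * y) = 1} with hJ
  set D : Set (PSL2 F) := ((SS b c : Subgroup (PSL2 F)) : Set (PSL2 F)) with hD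
  set T : Set (PSL2 F) := ((TT b c : Subgroup (PSL2 F)) : Set (PSL2 F)) with hT
  set A : Set (PSL2 F) := AA x with hA
  -- the involutions
  have hIcard : I.ncard = (InvS F).ncard + 1 := by
    have h1 : I = insert 1 (InvS F) := by
      ext y
      simp only [hI, InvS, Set.mem_ofPred_eq, Set.mem_insert_iff]
      constructor
      · intro h2
        by_cases h4 : y = 1
        · exact Or.inl h4
        · exact Or.inr ⟨h2, h4⟩
      · rintro (rfl | h2)
        · simp
        · exact h2.1
    rw [h1, Set.ncard_insert_of_notMem (by simp [InvS]) (Set.toFinite _)]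
  have hJcard : J.ncard = I.ncard := by
    have h1 : J = (fun y => x * y) '' I := by
      ext y
      constructor
      · intro hy
        refine ⟨x * y, hy, ?_⟩
        simp only
        rw [← mul_assoc, hxx, one_mul]
      · rintro ⟨z, hz, rfl⟩
        show x * (x * z) * (x * (x * z)) = 1
        have e : x * (x * z) = z := by rw [← mul_assoc, hxx, one_mul]
        rw [e]
        exact hz
    rw [h1, Set.ncard_image_of_injective _ (mul_right_injective x)]
  have hmemD : ∀ {y : PSL2 F}, y ∈ D ↔ x * y = y * x := fun {y} => mem_SS_iff_comm hq hx hxx h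
  have hJI : J ∩ I = D ∩ I := by
    ext y
    constructor
    · rintro ⟨h1, h2⟩
      refine ⟨hmemD.2 ?_, h2⟩
      have h4 : y⁻¹ = y := inv_eq_of_mul_eq_one_left h2
      have h5 : x * y * (x * y) = 1 := h1
      have h6 : x * y = (x * y)⁻¹ := eq_inv_of_mul_eq_one_left h5
      rw [h6, _root_.mul_inv_rev, h4, hxinv]
    · rintro ⟨h1, h2⟩
      refine ⟨?_, h2⟩
      have h4 := hmemD.1 h1
      show x * y * (x * y) = 1
      calc x * y * (x * y) = x * (y * x) * y := by group
        _ = x * (x * y) * y := by rw [h4]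
        _ = (x * x) * (y * y) := by group
        _ = 1 := by rw [hxx, show y * y = 1 from h2, one_mul]
  have hDI : (D ∩ I).ncard = 2 + (D \ T).ncard := by
    have h1 : D ∩ I = {1, x} ∪ (D \ T) := by
      ext y
      constructor
      · rintro ⟨h2, h4⟩
        by_cases h5 : y ∈ T
        · left
          by_cases h6 : y = 1
          · exact Or.inl h6
          · right
            exact inv_fix_eq (K3 F E) hbc h6 h4 h5.1 h5.2 hx hxx h.left h.right
        · exact Or.inr ⟨h2, h5⟩
      · rintro ((rfl | rfl) | ⟨h2, h4⟩)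
        · exact ⟨one_mem (SS b c : Subgroup (PSL2 F)), by simp [hI]⟩
        · exact ⟨Or.inl ⟨h.left, h.right⟩, hxx⟩
        · refine ⟨h2, ?_⟩
          rcases h2 with h5 | ⟨h5, h6⟩
          · exact absurd h5 h4
          · exact ((K3 F E).swap y b c hbc h5 h6).1
    have h2 : Disjoint ({1, x} : Set (PSL2 F)) (D \ T) := by
      rw [Set.disjoint_left]
      rintro y (rfl | rfl) ⟨-, h4⟩
      · exact h4 (one_mem (TT b c : Subgroup (PSL2 F)))
      · exact h4 ⟨h.left, h.right⟩
    rw [h1, Set.ncard_union_eq h2 (Set.toFinite _) (Set.toFinite _), Set.ncard_pair hx.symm]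
  have hDcard : D.ncard = q + 1 := by
    rw [hD, card_sub, card_SS_nonsplit hq hs]
  have hTcard : T.ncard * 2 = q + 1 := by
    rw [hT, card_sub, card_TT_nonsplit hq hs]
  have hDT : (D \ T).ncard = D.ncard - T.ncard :=
    Set.ncard_sdiff (TT_le_SS _ _) (Set.toFinite _)
  have hAcard : A.ncard = 2 * (q + 1) := card_AA E hq h3 hx hxx
  have hInv := card_InvS E hq
  have hS : {y : PSL2 F | Group.IsSolvable (Subgroup.closure ({x, y} : Set (PSL2 F)))} =
      I ∪ (J \ I) ∪ (D \ I) ∪ A := by
    ext y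
    simp only [Set.mem_ofPred_eq]
    rw [sol_inv hq hx hxx h h3]
    constructor
    · rintro (h1 | h1 | h1 | h1)
      · exact Or.inl (Or.inl (Or.inl h1))
      · by_cases h2 : y ∈ I
        · exact Or.inl (Or.inl (Or.inl h2))
        · exact Or.inl (Or.inl (Or.inr ⟨h1, h2⟩))
      · by_cases h2 : y ∈ I
        · exact Or.inl (Or.inl (Or.inl h2))
        · exact Or.inl (Or.inr ⟨h1, h2⟩)
      · exact Or.inr h1
    · rintro (((h1 | h1) | h1) | h1)
      · exact Or.inl h1
      · exact Or.inr (Or.inl h1.1)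
      · exact Or.inr (Or.inr (Or.inl h1.1))
      · exact Or.inr (Or.inr (Or.inr h1))
  have hd1 : Disjoint I (J \ I) := Set.disjoint_sdiff_right
  have hd2 : Disjoint (I ∪ (J \ I)) (D \ I) := by
    rw [Set.disjoint_left]
    rintro y (h1 | ⟨h1, h2⟩) ⟨h4, h5⟩
    · exact h5 h1
    · apply h5
      -- `y` commutes with `x` and `(x y)² = 1`
      have h6 := hmemD.1 h4
      have h7 : x * y * (x * y) = 1 := h1
      show y * y = 1
      calc y * y = (x * x) * (y * y) := by rw [hxx, one_mul]
        _ = x * (x * y) * y := by group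
        _ = x * (y * x) * y := by rw [h6]
        _ = x * y * (x * y) := by group
        _ = 1 := h7
  have hd3 : Disjoint (I ∪ (J \ I) ∪ (D \ I)) A := by
    rw [Set.disjoint_right]
    rintro y ⟨h1, h2, h4⟩ ((h5 | ⟨h5, -⟩) | ⟨h5, -⟩)
    · exact h1 (eq_one_of_sq_cube h5 h2)
    · -- `(y x)² = 1`
      have h6 : y * x * (y * x) = 1 := by
        have h7 : x * y * (x * y) = 1 := h5
        calc y * x * (y * x) = x⁻¹ * (x * y * (x * y)) * x := by group
          _ = 1 := by rw [h7]; simp
      have h7 := eq_one_of_sq_cube h6 h4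
      have h8 : y = x := by
        have := eq_inv_of_mul_eq_one_left h7
        rw [this, hxinv]
      rw [h8] at h1 h2
      exact hx (eq_one_of_sq_cube hxx h2)
    · -- order three in `D`
      haveI : Fact (Nat.Prime 3) := ⟨Nat.prime_three⟩
      have h6 : orderOf y = 3 := orderOf_eq_prime h2 h1
      have h7 := Subgroup.orderOf_dvd_natCard _ h5
      rw [h6, card_SS_nonsplit hq hs] at h7
      omega
  have e : Nat.card {y : PSL2 F // Group.IsSolvable (Subgroup.closure ({x, y} : Set (PSL2 F)))} =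
      ({y : PSL2 F | Group.IsSolvable (Subgroup.closure ({x, y} : Set (PSL2 F)))}).ncard := by
    rw [← Nat.card_coe_set_eq]
    rfl
  have h1 := Set.ncard_inter_add_ncard_sdiff_eq_ncard J I (Set.toFinite _)
  have h2 := Set.ncard_inter_add_ncard_sdiff_eq_ncard D I (Set.toFinite _)
  rw [hJI] at h1
  rw [e, hS, Set.ncard_union_eq hd3 (Set.toFinite _) (Set.toFinite _),
    Set.ncard_union_eq hd2 (Set.toFinite _) (Set.toFinite _),
    Set.ncard_union_eq hd1 (Set.toFinite _) (Set.toFinite _), hAcard]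
  have h4 : q * (q + 1) = q * (q - 1) + 2 * q := by
    obtain ⟨k, hk⟩ : ∃ k, q = k + 1 := ⟨q - 1, by omega⟩
    rw [hk]
    simp only [Nat.add_sub_cancel]
    ring
  rw [h4]
  generalize q * (q - 1) = n at *
  omega

end main

end Cfsg.Agent.Lib.Solub.Odd
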