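import Cfsg.Agent.Lib.Solub.OddBasic

/-!
# The solubilisers of semisimple elements of `PSL₂(F)`, `|F| ≡ 3 mod 8`, characteristic three
-/

set_option autoImplicit false
set_option linter.unusedSectionVars false

namespace Cfsg.Agent.Lib.Solub.Odd

open scoped MatrixGroups
open Matrix OnePoint MulAction
open Cfsg.Agent.Lib.Classical.SL2.Moebius Cfsg.Agent.Lib.Classical.SL2.Rational
open Cfsg.Agent.Lib.Classical.SL2.Klein Cfsg.Agent.Lib.Classical.SL2.Dickson
open Cfsg.Agent.Lib.Classical.SL2.Precise Cfsg.Agent.Lib.Classical.SL2.Tori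
open Cfsg.Agent.Lib.Solub.Basic Cfsg.Agent.Lib.Solub.Even Cfsg.Agent.Lib.Solub.V4Norm

local notation "PGL2" => ProjGenLinGroup (Fin 2)
local notation "PSL2" => ProjectiveSpecialLinearGroup (Fin 2)

attribute [local instance] pslAct

variable {F E : Type*} [Field F] [Fintype F] [DecidableEq F] [Field E] [Algebra F E] [DecidableEq E]
  [IsAlgClosed E] [CharP E 3]

/-- The solubilizer of a semisimple element which is not an involution. -/
lemma sol_semi (hq : Fintype.card F % 8 = 3) {x : PSL2 F} (hx : x ≠ 1) (hx2 : x * x ≠ 1)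
    (hx3 : x ^ 3 ≠ 1) {b c : OnePoint E} (h : Fixes x b c) (y : PSL2 F) :
    Group.IsSolvable (Subgroup.closure ({x, y} : Set (PSL2 F))) ↔
      y • b = b ∨ y • c = c ∨ y ∈ (SS b c : Subgroup (PSL2 F)) := by
  constructor
  · intro hs
    rcases sol_cases (E := E) hq hx hs with ⟨b', c', h1, h2⟩ | ⟨V, hV4, hVe, hxV, -⟩
    · have hfix : x • b' = b' ∧ x • c' = c' := by
        rcases h1 with h1 | ⟨h3, h4⟩
        · exact h1
        · by_cases hbc : b' = c'
          · subst hbc
            exact ⟨h3, h4⟩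
          · exact absurd ((K3 F E).swap x b' c' hbc h3 h4).1 hx2
      have e1 := h.only b' hfix.1
      have e2 := h.only c' hfix.2
      rcases e1 with rfl | rfl <;> rcases e2 with rfl | rfl
      · left
        exact SS_self.1 h2
      · right; right; exact h2
      · right; right
        rcases h2 with ⟨h3, h4⟩ | ⟨h3, h4⟩
        · exact Or.inl ⟨h4, h3⟩
        · exact Or.inr ⟨h4, h3⟩
      · right; left
        exact SS_self.1 h2
    · exfalso
      have hset := setting E hq hV4 hVe
      by_cases hxV' : x ∈ V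
      · exact hx2 (hVe x hxV')
      · exact hx3 (pow_three hset hxV hxV')
  · rintro (h1 | h1 | h1)
    · exact isSolvable_closure (K3 F E) (a := b) (b := b) (SS_self.2 h.left) (SS_self.2 h1)
    · exact isSolvable_closure (K3 F E) (a := c) (b := c) (SS_self.2 h.right) (SS_self.2 h1)
    · exact isSolvable_closure (K3 F E) (a := b) (b := c) (Or.inl ⟨h.left, h.right⟩) h1

/-- The count in the non-split case. -/
theorem count_nonsplit' (hq : Fintype.card F % 8 = 3) {x : PSL2 F} (hx : x ≠ 1) (hx2 : x * x ≠ 1)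
    (hx3 : x ^ 3 ≠ 1) {b c : OnePoint E} (h : Fixes x b c) (hs : NonsplitPair F b c) :
    Nat.card {y : PSL2 F // Group.IsSolvable (Subgroup.closure ({x, y} : Set (PSL2 F)))} =
      Fintype.card F + 1 := by
  rw [← card_SS_nonsplit (E := E) hq hs]
  refine Nat.card_congr (Equiv.subtypeEquivRight fun y => ?_)
  rw [sol_semi (E := E) hq hx hx2 hx3 h]
  constructor
  · rintro (h1 | h1 | h1)
    · exact Or.inl ⟨h1, nonsplit_fix hs h1⟩
    · exact Or.inl ⟨nonsplit_fix' hs h1, h1⟩
    · exact h1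
  · intro h1
    exact Or.inr (Or.inr h1)

/-- The count in the split case. -/
theorem count_split' (hq : Fintype.card F % 8 = 3) {x : PSL2 F} (hx : x ≠ 1) (hx2 : x * x ≠ 1)
    (hx3 : x ^ 3 ≠ 1) {b c : OnePoint E} (h : Fixes x b c) (hs : SplitPair F b c) :
    Nat.card {y : PSL2 F // Group.IsSolvable (Subgroup.closure ({x, y} : Set (PSL2 F)))} =
      Fintype.card F * (Fintype.card F - 1) := by
  set q := Fintype.card F with hq'
  have hab := pair_ne (Or.inl hs)
  obtain ⟨c₁, c₂, hc, rfl, rfl⟩ := id hs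
  set A : Set (PSL2 F) := ((stabilizer (PSL2 F) (ιp E c₁) : Subgroup (PSL2 F)) : Set (PSL2 F)) with hA
  set B : Set (PSL2 F) := ((stabilizer (PSL2 F) (ιp E c₂) : Subgroup (PSL2 F)) : Set (PSL2 F)) with hB
  set D : Set (PSL2 F) := ((SS (ιp E c₁) (ιp E c₂) : Subgroup (PSL2 F)) : Set (PSL2 F)) with hD
  set T : Set (PSL2 F) := ((TT (ιp E c₁) (ιp E c₂) : Subgroup (PSL2 F)) : Set (PSL2 F)) with hT
  have hS : {y : PSL2 F | Group.IsSolvable (Subgroup.closure ({x, y} : Set (PSL2 F)))} =
      (A ∪ B) ∪ (D \ T) := by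
    ext y
    simp only [Set.mem_ofPred_eq]
    rw [sol_semi (E := E) hq hx hx2 hx3 h]
    constructor
    · rintro (h1 | h1 | h1)
      · exact Or.inl (Or.inl h1)
      · exact Or.inl (Or.inr h1)
      · by_cases h2 : y ∈ T
        · exact Or.inl (Or.inl h2.1)
        · exact Or.inr ⟨h1, h2⟩
    · rintro ((h1 | h1) | ⟨h1, h2⟩)
      · exact Or.inl h1
      · exact Or.inr (Or.inl h1)
      · exact Or.inr (Or.inr h1)
  have hdisj : Disjoint (A ∪ B) (D \ T) := by
    rw [Set.disjoint_left]
    rintro y (h1 | h1) ⟨h2, h3⟩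
    · rcases h2 with h2 | ⟨h4, -⟩
      · exact h3 h2
      · have h1' : y • ιp E c₁ = ιp E c₁ := h1
        exact hab (h1'.symm.trans h4)
    · rcases h2 with h2 | ⟨-, h4⟩
      · exact h3 h2
      · have h1' : y • ιp E c₂ = ιp E c₂ := h1
        exact hab (h4.symm.trans h1')
  have hinter : A ∩ B = T := rfl
  have h1 := Set.ncard_union_add_ncard_inter A B (Set.toFinite _) (Set.toFinite _)
  rw [hinter] at h1
  have h2 : A.ncard * 2 = q * (q - 1) := by
    rw [hA, card_sub, card_stab hq]
  have h3 : B.ncard * 2 = q * (q - 1) := by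
    rw [hB, card_sub, card_stab hq]
  have h4 : T.ncard * 2 = q - 1 := by
    rw [hT, card_sub, card_TT_split hq hs]
  have h5 : (D \ T).ncard = D.ncard - T.ncard :=
    Set.ncard_sdiff (TT_le_SS _ _) (Set.toFinite _)
  have h6 : D.ncard = q - 1 := by
    rw [hD, card_sub, card_SS_split hq hs]
  have e : Nat.card {y : PSL2 F // Group.IsSolvable (Subgroup.closure ({x, y} : Set (PSL2 F)))} =
      ({y : PSL2 F | Group.IsSolvable (Subgroup.closure ({x, y} : Set (PSL2 F)))}).ncard := by
    rw [← Nat.card_coe_set_eq]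
    rfl
  rw [e, hS, Set.ncard_union_eq hdisj (Set.toFinite _) (Set.toFinite _), h5, h6]
  generalize q * (q - 1) = n at *
  omega

/-- Clause of order dividing `q - 1`. -/
theorem clause_split (E : Type*) [Field E] [Algebra F E] [DecidableEq E] [IsAlgClosed E] [CharP E 3]
    (hq : Fintype.card F % 8 = 3) (h3 : 3 ∣ Fintype.card F) {x : PSL2 F}
    (hx : x ≠ 1) (hx2 : orderOf x ≠ 2) (hd : orderOf x ∣ Fintype.card F - 1) :
    Nat.card {y : PSL2 F // Group.IsSolvable (Subgroup.closure ({x, y} : Set (PSL2 F)))} =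
      Fintype.card F * (Fintype.card F - 1) := by
  have hx' : ∀ n : ℕ, n.Prime → x ^ n = 1 → orderOf x = n := fun n hn h => by
    haveI : Fact n.Prime := ⟨hn⟩
    exact orderOf_eq_prime h hx
  have hxx : x * x ≠ 1 := by
    intro h
    exact hx2 (hx' 2 Nat.prime_two (by rw [pow_two]; exact h))
  have hx3 : x ^ 3 ≠ 1 := by
    intro h
    have h1 := hx' 3 Nat.prime_three h
    rw [h1] at hd
    omega
  obtain ⟨b, c, h⟩ := exists_fixes (K3 F E) hx
  have hbc : b ≠ c := by
    rintro rfl
    exact hx3 (pow_three_of_fixes (K3 F E) h)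
  rcases pair_of_element tP tP_injective (fun _ _ => rfl) (K3 F E) hx hbc h.left h.right with hs | hs
  · exact count_split' hq hx hxx hx3 h hs
  · exfalso
    have hT : x ∈ (TT b c : Subgroup (PSL2 F)) := ⟨h.left, h.right⟩
    have h2 := Subgroup.orderOf_dvd_natCard _ hT
    have h4 : orderOf x ∣ Fintype.card F + 1 := by
      rw [← card_TT_nonsplit hq hs]
      exact dvd_mul_of_dvd_left h2 2
    have h5 : orderOf x ∣ 2 := by
      have h6 : Fintype.card F + 1 = (Fintype.card F - 1) + 2 := by omega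
      rw [h6] at h4
      exact (Nat.dvd_add_right hd).1 h4
    apply hxx
    rw [← pow_two]
    exact orderOf_dvd_iff_pow_eq_one.1 h5

/-- Clause of order dividing `q + 1`. -/
theorem clause_nonsplit (E : Type*) [Field E] [Algebra F E] [DecidableEq E] [IsAlgClosed E] [CharP E 3]
    (hq : Fintype.card F % 8 = 3) (h3 : 3 ∣ Fintype.card F) {x : PSL2 F}
    (hx : x ≠ 1) (hx2 : orderOf x ≠ 2) (hd : orderOf x ∣ Fintype.card F + 1) :
    Nat.card {y : PSL2 F // Group.IsSolvable (Subgroup.closure ({x, y} : Set (PSL2 F)))} =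
      Fintype.card F + 1 := by
  have hx' : ∀ n : ℕ, n.Prime → x ^ n = 1 → orderOf x = n := fun n hn h => by
    haveI : Fact n.Prime := ⟨hn⟩
    exact orderOf_eq_prime h hx
  have hxx : x * x ≠ 1 := by
    intro h
    exact hx2 (hx' 2 Nat.prime_two (by rw [pow_two]; exact h))
  have hx3 : x ^ 3 ≠ 1 := by
    intro h
    have h1 := hx' 3 Nat.prime_three h
    rw [h1] at hd
    omega
  obtain ⟨b, c, h⟩ := exists_fixes (K3 F E) hx
  have hbc : b ≠ c := by
    rintro rfl
    exact hx3 (pow_three_of_fixes (K3 F E) h)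
  rcases pair_of_element tP tP_injective (fun _ _ => rfl) (K3 F E) hx hbc h.left h.right with hs | hs
  · exfalso
    have hT : x ∈ (TT b c : Subgroup (PSL2 F)) := ⟨h.left, h.right⟩
    have h2 := Subgroup.orderOf_dvd_natCard _ hT
    have h4 : orderOf x ∣ Fintype.card F - 1 := by
      rw [← card_TT_split hq hs]
      exact dvd_mul_of_dvd_left h2 2
    have h5 : orderOf x ∣ 2 := by
      have h6 : Fintype.card F + 1 = (Fintype.card F - 1) + 2 := by omega
      rw [h6] at hd
      exact (Nat.dvd_add_right h4).1 hd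
    apply hxx
    rw [← pow_two]
    exact orderOf_dvd_iff_pow_eq_one.1 h5
  · exact count_nonsplit' hq hx hxx hx3 h hs

end Cfsg.Agent.Lib.Solub.Odd
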