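import Cfsg.Agent.Lib.Solub.OddBasic

/-!
# The solubilisers of elements of order three of `PSL₂(F)`, `|F| ≡ 3 mod 8`, characteristic three
-/

set_option autoImplicit false
set_option linter.unusedSectionVars false

namespace Cfsg.Agent.Lib.Solub.Odd

open scoped MatrixGroups
open Matrix OnePoint MulAction
open Cfsg.Agent.Lib.Classical.SL2.Moebius Cfsg.Agent.Lib.Classical.SL2.Rational
open Cfsg.Agent.Lib.Classical.SL2.Klein Cfsg.Agent.Lib.Classical.SL2.Dickson
open Cfsg.Agent.Lib.Classical.SL2.Precise Cfsg.Agent.Lib.Classical.SL2.Tori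
open Cfsg.Agent.Lib.Solub.Basic Cfsg.Agent.Lib.Solub.Even Cfsg.Agent.Lib.Solub.V4Norm

local notation "PGL2" => ProjGenLinGroup (Fin 2)
local notation "PSL2" => ProjectiveSpecialLinearGroup (Fin 2)

attribute [local instance] pslAct

variable {F E : Type*} [Field F] [Fintype F] [DecidableEq F] [Field E] [Algebra F E] [DecidableEq E]

/-- The involutions `v` with `(x v)³ = 1`. -/
def II (x : PSL2 F) : Set (PSL2 F) := {v | v * v = 1 ∧ v ≠ 1 ∧ (x * v) ^ 3 = 1}

lemma II_conj {x v : PSL2 F} (g : PSL2 F) (hv : v ∈ II x) : g * v * g⁻¹ ∈ II (g * x * g⁻¹) := by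
  obtain ⟨h1, h2, h3⟩ := hv
  refine ⟨?_, ?_, ?_⟩
  · calc g * v * g⁻¹ * (g * v * g⁻¹) = g * (v * v) * g⁻¹ := by group
      _ = 1 := by rw [h1]; simp
  · intro h
    apply h2
    have h4 : g * v = g := mul_inv_eq_one.1 h
    exact mul_eq_left.1 h4
  · have h4 : g * x * g⁻¹ * (g * v * g⁻¹) = g * (x * v) * g⁻¹ := by group
    rw [h4, conj_pow, h3]
    simp

section Coordinates

/-- The class of a matrix of determinant one. -/
noncomputable def mkS (a b c d : F) (h : a * d - b * c = 1) : PSL2 F :=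
  QuotientGroup.mk (⟨!![a, b; c, d], by rw [Matrix.det_fin_two_of]; exact h⟩ : SL(2, F))

lemma tP_mkS (a b c d : F) (h : a * d - b * c = 1) :
    tP (mkS a b c d h) = ProjGenLinGroup.mk (glOf a b c d (by rw [h]; exact one_ne_zero)) := by
  have h1 : SpecialLinearGroup.toGL (⟨!![a, b; c, d], by rw [Matrix.det_fin_two_of]; exact h⟩ : SL(2, F)) =
      glOf a b c d (by rw [h]; exact one_ne_zero) := gl_ext rfl rfl rfl rfl
  exact congrArg ProjGenLinGroup.mk h1

lemma mkS_infty (a b c d : F) (h : a * d - b * c = 1) :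
    tP (mkS a b c d h) • (∞ : OnePoint F) = if c = 0 then ∞ else ((a / c : F) : OnePoint F) := by
  rw [tP_mkS, mk_smul, smul_infty]
  rfl

lemma mkS_coe (a b c d : F) (h : a * d - b * c = 1) (k : F) :
    tP (mkS a b c d h) • (k : OnePoint F) = if c * k + d = 0 then ∞
      else (((a * k + b) / (c * k + d) : F) : OnePoint F) := by
  rw [tP_mkS, mk_smul, smul_coe]
  rfl

/-- The unipotent element. -/
noncomputable def uP (t : F) : PSL2 F := mkS 1 t 0 1 (by ring)

lemma tP_uP (t : F) : tP (uP t) = ProjGenLinGroup.mk (uG t) := tP_mkS _ _ _ _ _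

lemma uP_infty (t : F) : tP (uP t) • (∞ : OnePoint F) = ∞ := by
  rw [uP, mkS_infty]
  simp

lemma uP_coe (t k : F) : tP (uP t) • (k : OnePoint F) = ((k + t : F) : OnePoint F) := by
  rw [uP, mkS_coe]
  simp

/-- The involution. -/
noncomputable def vP (s t : F) (ht : t ≠ 0) : PSL2 F :=
  mkS (s / t) ((-t ^ 2 - s ^ 2) / t) (1 / t) (-s / t) (by
    field_simp
    ring)

lemma vP_infty (s t : F) (ht : t ≠ 0) : tP (vP s t ht) • (∞ : OnePoint F) = (s : OnePoint F) := by
  rw [vP, mkS_infty, if_neg (one_div_ne_zero ht)]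
  congr 1
  field_simp

lemma vP_s (s t : F) (ht : t ≠ 0) : tP (vP s t ht) • (s : OnePoint F) = ∞ := by
  rw [vP, mkS_coe, if_pos]
  field_simp
  ring

lemma vP_st (s t : F) (ht : t ≠ 0) :
    tP (vP s t ht) • ((s + t : F) : OnePoint F) = ((s - t : F) : OnePoint F) := by
  rw [vP, mkS_coe, if_neg]
  · congr 1
    have h1 : 1 / t * (s + t) + -s / t = 1 := by
      field_simp
      ring
    rw [h1, div_one]
    field_simp
    ring
  · have h1 : 1 / t * (s + t) + -s / t = 1 := by
      field_simp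
      ring
    rw [h1]
    exact one_ne_zero

lemma vP_ne_one (s t : F) (ht : t ≠ 0) : vP s t ht ≠ 1 := by
  intro h
  have h1 := vP_infty s t ht
  rw [h, map_one, one_smul] at h1
  simp at h1

lemma vP_sq (s t : F) (ht : t ≠ 0) : vP s t ht * vP s t ht = 1 := by
  apply tP_injective
  rw [map_mul, map_one]
  have h1 := vP_infty s t ht
  have h2 := vP_s s t ht
  rw [vP, tP_mkS] at h1 h2 ⊢
  exact swap_sq (a := ∞) (b := (s : OnePoint F)) (by simp) h1 h2

lemma vP_cube (s t : F) (ht : t ≠ 0) : (uP t * vP s t ht) ^ 3 = 1 := by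
  apply tP_injective
  rw [map_pow, map_one]
  set w := tP (uP t * vP s t ht) with hw
  have h1 : w • (s : OnePoint F) = ∞ := by
    rw [hw, map_mul, mul_smul, vP_s, uP_infty]
  have h2 : w • (∞ : OnePoint F) = ((s + t : F) : OnePoint F) := by
    rw [hw, map_mul, mul_smul, vP_infty, uP_coe]
  have h3 : w • ((s + t : F) : OnePoint F) = (s : OnePoint F) := by
    rw [hw, map_mul, mul_smul, vP_st, uP_coe]
    congr 1
    ring
  have e1 : w ^ 3 • (s : OnePoint F) = s := by
    rw [pow_succ, pow_two, mul_smul, mul_smul, h1, h2, h3]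
  have e2 : w ^ 3 • (∞ : OnePoint F) = ∞ := by
    rw [pow_succ, pow_two, mul_smul, mul_smul, h2, h3, h1]
  have e3 : w ^ 3 • ((s + t : F) : OnePoint F) = ((s + t : F) : OnePoint F) := by
    rw [pow_succ, pow_two, mul_smul, mul_smul, h3, h1, h2]
  by_contra hne
  rcases fix_three' _ _ _ _ hne e2 e1 e3 with h | h | h
  · simp at h
  · simp at h
  · rw [OnePoint.coe_eq_coe] at h
    exact ht (by linear_combination -h)

lemma vP_mem (s t : F) (ht : t ≠ 0) : vP s t ht ∈ II (uP t) :=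
  ⟨vP_sq s t ht, vP_ne_one s t ht, vP_cube s t ht⟩

/-- `PSL₂(F)` is transitive on the rational points. -/
lemma exists_smul_infty' (c₀ : OnePoint F) : ∃ g : PSL2 F, tP g • (∞ : OnePoint F) = c₀ := by
  cases c₀ with
  | infty => exact ⟨1, by simp⟩
  | coe k =>
    refine ⟨mkS k (-1) 1 0 (by ring), ?_⟩
    rw [mkS_infty, if_neg one_ne_zero, div_one]

/-- An element with unique fixed point `∞`. -/
lemma eq_uP {y : PSL2 F} (h1 : y • (∞ : OnePoint E) = ∞)
    (h2 : ∀ ω : OnePoint E, y • ω = ω → ω = ∞) : ∃ t : F, t ≠ 0 ∧ y = uP t := by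
  obtain ⟨M, hM⟩ := ProjGenLinGroup.mk_surjective (tP y)
  obtain ⟨t, ht, h3⟩ := eq_uG_of_unique (E := E) M (by rw [hM]; exact h1) (fun ω hω => by
    rw [hM] at hω
    exact h2 ω hω)
  refine ⟨t, ht, tP_injective ?_⟩
  rw [tP_uP, ← h3, hM]

end Coordinates

section main

variable [IsAlgClosed E] [CharP E 3]

/-- An element of order three has a unique rational fixed point. -/
lemma exists_rational_fix (hq : Fintype.card F % 8 = 3) (h3 : 3 ∣ Fintype.card F) {x : PSL2 F}
    (hx : x ≠ 1) (hx3 : x ^ 3 = 1) : ∃ c₀ : OnePoint F, Fixes x (ιp E c₀) (ιp E c₀) := by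
  obtain ⟨b, c, h⟩ := exists_fixes (K3 F E) hx
  haveI : Fact (Nat.Prime 3) := ⟨Nat.prime_three⟩
  have hord : orderOf x = 3 := orderOf_eq_prime hx3 hx
  by_cases hbc : b = c
  · subst hbc
    obtain ⟨c₀, rfl⟩ := rational_of_element tP tP_injective (fun _ _ => rfl) h.left
      (fun ω hω => by
        rcases h.only ω hω with h' | h' <;> exact h')
    exact ⟨c₀, h⟩
  · exfalso
    have hT : x ∈ (TT b c : Subgroup (PSL2 F)) := ⟨h.left, h.right⟩
    have h2 := Subgroup.orderOf_dvd_natCard _ hT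
    rw [hord] at h2
    rcases pair_of_element tP tP_injective (fun _ _ => rfl) (K3 F E) hx hbc h.left h.right with
      hs | hs
    · have h4 := card_TT_split hq hs
      omega
    · have h4 := card_TT_nonsplit hq hs
      omega

variable (hq : Fintype.card F % 8 = 3) {x : PSL2 F} {c₀ : OnePoint F}
  (hf : Fixes x (ιp E c₀) (ιp E c₀))

include hf

lemma II_unique {v v' : PSL2 F} (hq : Fintype.card F % 8 = 3) (hv : v ∈ II x) (hv' : v' ∈ II x)
    (h : v • ιp E c₀ = v' • ιp E c₀) : v = v' := by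
  set a := ιp E c₀ with ha
  set a' := v • a with ha'
  set a'' := x • a' with ha''
  obtain ⟨hv1, hv2, hv3⟩ := hv
  obtain ⟨hv1', hv2', hv3'⟩ := hv'
  have hne : a' ≠ a := inv_not_fix hq hv2 hv1 c₀
  have e1 : v • a' = a := by rw [ha', ← mul_smul, hv1, one_smul]
  have e1' : v' • a' = a := by rw [h, ← mul_smul, hv1', one_smul]
  have key : ∀ u : PSL2 F, u * u = 1 → (x * u) ^ 3 = 1 → u • a = a' → u • a' = a →
      x • u • a'' = a' := by
    intro u hu1 hu3 hu4 hu5
    have h1 : (x * u) • a' = a := by rw [mul_smul, hu5, hf.left]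
    have h2 : (x * u) • a = a'' := by rw [mul_smul, hu4]
    have h3 : (x * u) • a'' = a' := by
      have h4 : (x * u) ^ 3 • a' = a' := by rw [hu3, one_smul]
      rw [pow_succ, pow_two, mul_smul, mul_smul, h1, h2] at h4
      exact h4
    rwa [mul_smul] at h3
  have e2 := key v hv1 hv3 rfl e1
  have e2' := key v' hv1' hv3' h.symm e1'
  have e3 : v • a'' = v' • a'' := smul_left_cancel x (e2.trans e2'.symm)
  by_contra hcon
  have hg : v⁻¹ * v' ≠ 1 := fun h5 => hcon (inv_mul_eq_one.1 h5)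
  have f1 : (v⁻¹ * v') • a = a := by
    rw [mul_smul, ← h, inv_smul_eq_iff]
  have f2 : (v⁻¹ * v') • a' = a' := by
    rw [mul_smul, e1', inv_smul_eq_iff, e1]
  have f3 : (v⁻¹ * v') • a'' = a'' := by
    rw [mul_smul, ← e3, inv_smul_smul]
  rcases (K3 F E).fix_three _ a a' a'' hg f1 f2 f3 with h6 | h6 | h6
  · exact hne h6.symm
  · apply hne
    have h7 : x • a = x • a' := by rw [hf.left]; exact h6
    exact (smul_left_cancel x h7).symm
  · apply hne
    rcases hf.only a' h6.symm with h7 | h7 <;> exact h7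

lemma exists_II (hx : x ≠ 1) {c₁ : OnePoint F} (hc : c₁ ≠ c₀) : ∃ v ∈ II x, tP v • c₀ = c₁ := by
  obtain ⟨g, hg⟩ := exists_smul_infty' c₀
  have hg' : g • (∞ : OnePoint E) = ιp E c₀ := by
    have : (∞ : OnePoint E) = ιp E (∞ : OnePoint F) := rfl
    rw [this, smul_ιp, hg]
  set x' := g⁻¹ * x * g with hx'
  have h1 : x' • (∞ : OnePoint E) = ∞ := by
    rw [hx', mul_smul, mul_smul, hg', hf.left, ← hg', inv_smul_smul]
  have h2 : ∀ ω : OnePoint E, x' • ω = ω → ω = ∞ := by
    intro ω hω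
    have h3 : x • (g • ω) = g • ω := by
      rw [hx', mul_smul, mul_smul, inv_smul_eq_iff] at hω
      exact hω
    have h4 : g • ω = g • (∞ : OnePoint E) := by
      rw [hg']
      rcases hf.only _ h3 with h5 | h5 <;> exact h5
    exact smul_left_cancel g h4
  obtain ⟨t, ht, hxt⟩ := eq_uP (E := E) h1 h2
  have hk : ∃ k : F, (tP g)⁻¹ • c₁ = (k : OnePoint F) := by
    cases hω : (tP g)⁻¹ • c₁ with
    | infty =>
      exfalso
      apply hc
      rw [inv_smul_eq_iff] at hω
      rw [hω, hg]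
    | coe k => exact ⟨k, rfl⟩
  obtain ⟨k, hk⟩ := hk
  refine ⟨g * vP k t ht * g⁻¹, ?_, ?_⟩
  · have h3 := II_conj g (vP_mem k t ht)
    rw [← hxt] at h3
    have h4 : g * x' * g⁻¹ = x := by
      rw [hx']
      group
    rwa [h4] at h3
  · rw [map_mul, map_mul, map_inv, mul_smul, mul_smul, ← hg, inv_smul_smul, vP_infty, ← hk,
      smul_inv_smul]

/-- **The number of elements of `II x`.** -/
theorem card_II (hq : Fintype.card F % 8 = 3) (hx : x ≠ 1) : Nat.card (II x) = Fintype.card F := by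
  classical
  haveI : Finite (OnePoint F) := inferInstanceAs (Finite (Option F))
  haveI : Fintype (OnePoint F) := Fintype.ofFinite _
  have hne : ∀ v : II x, tP v.1 • c₀ ≠ c₀ := by
    intro v h
    apply inv_not_fix (E := E) hq v.2.2.1 v.2.1 c₀
    rw [smul_ιp, h]
  let f : II x → {c : OnePoint F // c ≠ c₀} := fun v => ⟨tP v.1 • c₀, hne v⟩
  have hf' : Function.Bijective f := by
    constructor
    · intro v v' h
      apply Subtype.ext
      apply II_unique hf hq v.2 v'.2
      rw [smul_ιp, smul_ιp]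
      exact congrArg (ιp E) (congrArg Subtype.val h)
    · rintro ⟨c₁, hc₁⟩
      obtain ⟨v, hv, hv'⟩ := exists_II hf hx hc₁
      exact ⟨⟨v, hv⟩, Subtype.ext hv'⟩
  rw [Nat.card_congr (Equiv.ofBijective f hf'), Nat.card_eq_fintype_card,
    Fintype.card_subtype_compl, Fintype.card_subtype_eq, ← Nat.card_eq_fintype_card, card_onePoint]
  simp

lemma II_not_comm (hq : Fintype.card F % 8 = 3) {v : PSL2 F} (hv : v ∈ II x) :
    x * v * x⁻¹ ≠ v := by
  intro h
  have h1 : x * v = v * x := mul_inv_eq_iff_eq_mul.1 h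
  have h2 : v ∈ (SS (ιp E c₀) (ιp E c₀) : Subgroup (PSL2 F)) := hf.mem_SS (fun d hd => by
    rw [← mul_smul, h1, mul_smul, hd])
  exact inv_not_fix hq hv.2.1 hv.1 c₀ (SS_self.1 h2)

lemma exists_four_II (hq : Fintype.card F % 8 = 3) (hx3 : x ^ 3 = 1) {v : PSL2 F} (hv : v ∈ II x) :
    ∃ V : Subgroup (PSL2 F), Nat.card V = 4 ∧ (∀ w ∈ V, w * w = 1) ∧ x ∈ NN V ∧ v ∈ V :=
  exists_four hx3 hv.1 hv.2.1 (II_not_comm hf hq hv) hv.2.2

lemma pow_smul_fix (i : ℕ) : x ^ i • ιp E c₀ = ιp E c₀ := by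
  induction i with
  | zero => simp
  | succ n ih => rw [pow_succ, mul_smul, hf.left, ih]

/-- **The solubiliser of an element of order three.** -/
theorem sol_order3 (hq : Fintype.card F % 8 = 3) (hx : x ≠ 1) (hx3 : x ^ 3 = 1) (y : PSL2 F) :
    Group.IsSolvable (Subgroup.closure ({x, y} : Set (PSL2 F))) ↔
      y • ιp E c₀ = ιp E c₀ ∨ ∃ v ∈ II x, ∃ i : ℕ, i < 3 ∧ y = v * x ^ i := by
  constructor
  · intro hs
    rcases sol_cases (E := E) hq hx hs with ⟨b, c, h1, h2⟩ | ⟨V, hV4, hVe, hxV, hyV⟩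
    · left
      have hxx : x * x ≠ 1 := fun h => hx (eq_one_of_sq_cube h hx3)
      have hfix : x • b = b ∧ x • c = c := by
        rcases h1 with h1 | ⟨h3, h4⟩
        · exact h1
        · by_cases hbc : b = c
          · subst hbc
            exact ⟨h3, h4⟩
          · exact absurd ((K3 F E).swap x b c hbc h3 h4).1 hxx
      have e1 : b = ιp E c₀ := by
        rcases hf.only b hfix.1 with h | h <;> exact h
      have e2 : c = ιp E c₀ := by
        rcases hf.only c hfix.2 with h | h <;> exact h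
      rw [e1, e2] at h2
      exact SS_self.1 h2
    · have hset := setting E hq hV4 hVe
      have hxV' : x ∉ V := fun h => hx (eq_one_of_sq_cube (hVe x h) hx3)
      obtain ⟨v, hv, i, hi, rfl⟩ := exists_eq_mul_pow hset hxV hxV' hyV
      by_cases hv1 : v = 1
      · left
        rw [hv1, one_mul]
        exact pow_smul_fix hf i
      · right
        refine ⟨v, ⟨hVe v hv, hv1, ?_⟩, i, hi, rfl⟩
        exact mul_pow_three_eq_one hV4 hVe hxV hx3 hv hv1 (no_fixed hset hxV hxV' hv hv1)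
  · rintro (h1 | ⟨v, hv, i, hi, rfl⟩)
    · exact isSolvable_closure (K3 F E) (a := ιp E c₀) (b := ιp E c₀) (SS_self.2 hf.left) (SS_self.2 h1)
    · obtain ⟨V, hV4, hVe, hxV, hvV⟩ := exists_four_II hf hq hx3 hv
      have hset := setting E hq hV4 hVe
      exact isSolvable_closure_of_NN hset hxV (mul_mem (le_NN V hvV) (pow_mem hxV i))

/-- **The count for an element of order three.** -/
theorem count_three (hq : Fintype.card F % 8 = 3) (hx : x ≠ 1) (hx3 : x ^ 3 = 1) :
    2 * Nat.card {y : PSL2 F // Group.IsSolvable (Subgroup.closure ({x, y} : Set (PSL2 F)))} =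
      Fintype.card F * (Fintype.card F + 5) := by
  classical
  set q := Fintype.card F with hq'
  have hq1 : 1 < q := Fintype.one_lt_card
  haveI : Fact (Nat.Prime 3) := ⟨Nat.prime_three⟩
  have hord : orderOf x = 3 := orderOf_eq_prime hx3 hx
  set a := ιp E c₀ with ha
  let Φ : II x × Fin 3 → PSL2 F := fun p => p.1.1 * x ^ (p.2 : ℕ)
  have hΦ : Function.Injective Φ := by
    rintro ⟨v, i⟩ ⟨v', j⟩ h
    have h0 : (v : PSL2 F) * x ^ (i : ℕ) = v' * x ^ (j : ℕ) := h
    have h1 : (v : PSL2 F) • a = (v' : PSL2 F) • a := by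
      have h2 := congrArg (fun g : PSL2 F => g • a) h0
      simp only [mul_smul] at h2
      rwa [pow_smul_fix hf, pow_smul_fix hf] at h2
    have h2 : v = v' := Subtype.ext (II_unique hf hq v.2 v'.2 h1)
    subst h2
    have h3 : x ^ (i : ℕ) = x ^ (j : ℕ) := mul_left_cancel h0
    have h4 : (i : ℕ) = j :=
      pow_injOn_Iio_orderOf (x := x) (by rw [Set.mem_Iio, hord]; exact i.2)
        (by rw [Set.mem_Iio, hord]; exact j.2) h3
    have h5 : i = j := Fin.ext h4
    subst h5
    rfl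
  set A : Set (PSL2 F) := ((stabilizer (PSL2 F) a : Subgroup (PSL2 F)) : Set (PSL2 F)) with hA
  set B : Set (PSL2 F) := Set.range Φ with hB
  have hS : {y : PSL2 F | Group.IsSolvable (Subgroup.closure ({x, y} : Set (PSL2 F)))} = A ∪ B := by
    ext y
    simp only [Set.mem_ofPred_eq]
    rw [sol_order3 hf hq hx hx3]
    constructor
    · rintro (h1 | ⟨v, hv, i, hi, rfl⟩)
      · exact Or.inl h1
      · exact Or.inr ⟨(⟨v, hv⟩, ⟨i, hi⟩), rfl⟩
    · rintro (h1 | ⟨⟨v, i⟩, rfl⟩)
      · exact Or.inl h1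
      · exact Or.inr ⟨v, v.2, i, i.2, rfl⟩
  have hdisj : Disjoint A B := by
    rw [Set.disjoint_left]
    rintro y h1 ⟨⟨v, i⟩, rfl⟩
    have h2 : ((v : PSL2 F) * x ^ (i : ℕ)) • a = a := h1
    rw [mul_smul, pow_smul_fix hf] at h2
    exact inv_not_fix hq v.2.2.1 v.2.1 c₀ h2
  have h2 : A.ncard * 2 = q * (q - 1) := by
    rw [hA, card_sub, card_stab hq]
  have h3 : B.ncard = q * 3 := by
    rw [hB, ← Nat.card_coe_set_eq, Nat.card_range_of_injective hΦ, Nat.card_prod,
      card_II hf hq hx, Nat.card_eq_fintype_card (α := Fin 3), Fintype.card_fin]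
  have e : Nat.card {y : PSL2 F // Group.IsSolvable (Subgroup.closure ({x, y} : Set (PSL2 F)))} =
      ({y : PSL2 F | Group.IsSolvable (Subgroup.closure ({x, y} : Set (PSL2 F)))}).ncard := by
    rw [← Nat.card_coe_set_eq]
    rfl
  rw [e, hS, Set.ncard_union_eq hdisj (Set.toFinite _) (Set.toFinite _), h3]
  have h4 : q * (q + 5) = q * (q - 1) + q * 6 := by
    obtain ⟨k, hk⟩ : ∃ k, q = k + 1 := ⟨q - 1, by omega⟩
    rw [hk]
    simp only [Nat.add_sub_cancel]
    ring
  rw [h4, ← h2]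
  ring

end main

end Cfsg.Agent.Lib.Solub.Odd
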